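import Cfsg.Agent.Lib.QBaer.Field

/-!
Descent along the powers of a generator of a finite field of prime-power order.
-/

namespace Cfsg.Agent.Lib.QBaer

variable {F : Type*} [Field F] [Finite F]

/-- A subring of a finite field is a subfield. -/
theorem subring_inv_mem (R : Subring F) {x : F} (hx : x ∈ R) : x⁻¹ ∈ R := by
  have := Fintype.ofFinite F
  rcases eq_or_ne x 0 with rfl | h0
  · rw [inv_zero]; exact R.zero_mem
  have h1 := FiniteField.pow_card_sub_one_eq_one x h0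
  have h2 : 2 ≤ Fintype.card F := Fintype.one_lt_card
  rw [show Fintype.card F - 1 = (Fintype.card F - 2) + 1 by omega, pow_succ] at h1
  rw [← eq_inv_of_mul_eq_one_left h1]
  exact pow_mem hx _

theorem dvd_card_sub_one (K : Subfield F) {x : F} (hx : x ∈ K) (hx0 : x ≠ 0) :
    orderOf x ∣ Nat.card K - 1 := by
  have := Fintype.ofFinite K
  refine orderOf_dvd_of_pow_eq_one ?_
  have h := FiniteField.pow_card_sub_one_eq_one (⟨x, hx⟩ : K) (fun h => hx0 (congrArg Subtype.val h))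
  rw [← Nat.card_eq_fintype_card] at h
  exact congrArg Subtype.val h

/-- The data at a step where the generated subfield drops. -/
theorem kummer_data {p n j : ℕ} (hp : p.Prime) (u : F) (hu : orderOf u = p ^ n) (hj : j + 2 ≤ n)
    (hj2 : p = 2 → j + 3 ≤ n) (htop : Subfield.closure ({u ^ p ^ j} : Set F) = ⊤) (K : Subfield F)
    (hK : u ^ p ^ (j + 1) ∈ K) (hω : u ^ p ^ j ∉ K) :
    (Nat.card F = Nat.card K ^ p ∧
      (∀ c : Fin p → F, (∀ i, c i ∈ K) → ∑ i, c i * (u ^ p ^ j) ^ (i : ℕ) = 0 → c = 0) ∧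
      ∀ y : F, ∃ c : Fin p → F, (∀ i, c i ∈ K) ∧ y = ∑ i, c i * (u ^ p ^ j) ^ (i : ℕ)) ∧
      p ∣ Nat.card K - 1 ∧ (p = 2 → 4 ∣ Nat.card K - 1) := by
  have hu0 : u ≠ 0 := by
    rintro rfl
    rw [orderOf_zero] at hu
    exact (pow_pos hp.pos n).ne' hu.symm
  have hmem : ∀ m, m + j + 1 ≤ n → u ^ p ^ (n - m) ∈ K := fun m hm => by
    rw [show n - m = (j + 1) + (n - m - (j + 1)) by omega, pow_add, pow_mul]
    exact pow_mem hK _
  have hord : ∀ m, m ≤ n → orderOf (u ^ p ^ (n - m)) = p ^ m := fun m hm => by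
    rw [orderOf_pow' u (pow_ne_zero _ hp.ne_zero), hu,
      Nat.gcd_eq_right (pow_dvd_pow p (Nat.sub_le n m)), Nat.pow_div (Nat.sub_le n m) hp.pos]
    congr 1; omega
  have hdvd : ∀ m, m + j + 1 ≤ n → p ^ m ∣ Nat.card K - 1 := fun m hm => by
    rw [← hord m (by omega)]
    exact dvd_card_sub_one K (hmem m hm) (pow_ne_zero _ hu0)
  refine ⟨kummer K hp (ω := u ^ p ^ j) (ζ := u ^ p ^ (n - 1)) ?_ hω (hmem 1 (by omega)) ?_ ?_, ?_, ?_⟩
  · rw [← pow_mul, ← pow_succ]; exact hK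
  · have := IsPrimitiveRoot.orderOf (u ^ p ^ (n - 1))
    rwa [hord 1 (by omega), pow_one] at this
  · intro R _ hωR
    let L : Subfield F := { R with inv_mem' := fun x hx => subring_inv_mem R hx }
    have hL : Subfield.closure ({u ^ p ^ j} : Set F) ≤ L :=
      Subfield.closure_le.2 (Set.singleton_subset_iff.2 hωR)
    rw [htop] at hL
    exact eq_top_iff.2 fun x _ => hL (Subfield.mem_top x)
  · simpa using hdvd 1 (by omega)
  · rintro rfl
    exact hdvd 2 (by have := hj2 rfl; omega)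

/-- The generated field does not drop further. -/
theorem closure_pow_top {p n : ℕ} (hp : p.Prime) (u : F) (hu : orderOf u = p ^ n)
    (h1 : Subfield.closure ({u ^ p} : Set F) = ⊤) :
    ∀ j, j + 1 ≤ n → (p = 2 → j + 2 ≤ n) → Subfield.closure ({u ^ p ^ j} : Set F) = ⊤ := by
  intro j
  induction j with
  | zero =>
    intro _ _
    rw [pow_zero, pow_one, eq_top_iff, ← h1, Subfield.closure_le, Set.singleton_subset_iff]
    exact pow_mem (Subfield.subset_closure (Set.mem_singleton u)) p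
  | succ j ih =>
    intro hj hj2
    have htop := ih (by omega) (fun h => by have := hj2 h; omega)
    set K := Subfield.closure ({u ^ p ^ (j + 1)} : Set F) with hK
    have hmem : u ^ p ^ (j + 1) ∈ K := Subfield.subset_closure (Set.mem_singleton _)
    by_cases hω : u ^ p ^ j ∈ K
    · rw [eq_top_iff, ← htop]
      exact Subfield.closure_le.2 (Set.singleton_subset_iff.2 hω)
    obtain ⟨⟨hQ, -, -⟩, hd1, hd2⟩ := kummer_data hp u hu (by omega) (fun h => by have := hj2 h; omega)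
      htop K hmem hω
    have hu0 : u ≠ 0 := by
      rintro rfl
      rw [orderOf_zero] at hu
      exact (pow_pos hp.pos n).ne' hu.symm
    have h := pow_prime_mem K hp hQ hd1 hd2 hu0 hmem
    rw [eq_top_iff, ← h1]
    exact Subfield.closure_le.2 (Set.singleton_subset_iff.2 h)

/-- An exponent with `k ^ p ≡ 1` modulo `p ^ n`. -/
theorem modEq_one_of_pow {p n k : ℕ} (hp : p.Prime) (h1 : k ≡ 1 [MOD p]) (h2 : p = 2 → k ≡ 1 [MOD 4])
    (hk : 1 ≤ k) (h : k ^ p ≡ 1 [MOD p ^ n]) : k ≡ 1 [MOD p ^ (n - 1)] := by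
  have hp1 : p ∣ k - 1 := (Nat.modEq_iff_dvd' hk).1 h1.symm
  have h3 : p ^ n ∣ k ^ p - 1 := (Nat.modEq_iff_dvd' (Nat.one_le_pow _ _ hk)).1 h.symm
  rw [← geom_sum_mul_of_one_le hk p] at h3
  have hS := not_sq_dvd_geom hp hp1 (fun e => (Nat.modEq_iff_dvd' hk).1 (h2 e).symm) hk
  refine ((Nat.modEq_iff_dvd' hk).2 ?_).symm
  obtain ⟨a, b, ha, hb, hab⟩ := (Nat.dvd_mul (k := p ^ n)).1 h3
  obtain ⟨i, -, rfl⟩ := (Nat.dvd_prime_pow hp).1 ⟨b, hab.symm⟩
  have hi : i ≤ 1 := by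
    by_contra hi
    exact hS ((pow_dvd_pow p (by omega : 2 ≤ i)).trans ha)
  obtain ⟨l, hl, rfl⟩ := (Nat.dvd_prime_pow hp).1 ⟨p ^ i, by rw [← hab, mul_comm]⟩
  rw [← pow_add] at hab
  have := Nat.pow_right_injective hp.two_le hab
  exact (pow_dvd_pow p (by omega : n - 1 ≤ l)).trans hb

end Cfsg.Agent.Lib.QBaer
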