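import Cfsg.Agent.Lib.QBaer.Two
import Cfsg.Agent.Lib.QBaer.Kummer
import Cfsg.Agent.S0675
import Cfsg.Agent.S3972

/-!
The semilinear situation: a Sylow subgroup acting through a field with a self-centralising cyclic
subgroup, and the resulting contradiction.
-/

namespace Cfsg.Agent.Lib.QBaer

/-- Powers with a commutation rule. -/
theorem mul_pow_of_rule {G : Type*} [Group G] {a b c : G} (h : b * a = c * (a * b)) (hca : Commute c a)
    (hcb : Commute c b) : ∀ j : ℕ, (a * b) ^ j = a ^ j * b ^ j * c ^ j.choose 2 := by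
  have hba : ∀ j : ℕ, b ^ j * a = c ^ j * (a * b ^ j) := by
    intro j
    induction j with
    | zero => simp
    | succ j ih =>
      calc b ^ (j + 1) * a = b ^ j * (b * a) := by rw [pow_succ, mul_assoc]
        _ = b ^ j * c * a * b := by rw [h]; simp only [mul_assoc]
        _ = c * (b ^ j * a) * b := by rw [← (hcb.pow_right j).eq]; simp only [mul_assoc]
        _ = c ^ (j + 1) * (a * b ^ (j + 1)) := by
          rw [ih, pow_succ' c, pow_succ b]; simp only [mul_assoc]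
  intro j
  induction j with
  | zero => simp
  | succ j ih =>
    have hcc : ∀ m : ℕ, Commute (c ^ m) (a * b) := fun m => (hca.mul_right hcb).pow_left m
    have hca' : ∀ i m : ℕ, Commute (c ^ i) (a ^ m) := fun i m => (hca.pow_left i).pow_right m
    calc (a * b) ^ (j + 1) = a ^ j * b ^ j * c ^ j.choose 2 * (a * b) := by rw [pow_succ, ih]
      _ = a ^ j * (b ^ j * a) * b * c ^ j.choose 2 := by
        rw [mul_assoc _ (c ^ j.choose 2), (hcc _).eq]; simp only [mul_assoc]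
      _ = a ^ j * c ^ j * (a * b ^ j * b) * c ^ j.choose 2 := by rw [hba]; simp only [mul_assoc]
      _ = c ^ j * (a ^ (j + 1) * b ^ (j + 1)) * c ^ j.choose 2 := by
        rw [← (hca' j j).eq, pow_succ a, pow_succ b]; simp only [mul_assoc]
      _ = a ^ (j + 1) * b ^ (j + 1) * (c ^ j * c ^ j.choose 2) := by
        rw [((hca' j (j + 1)).mul_right ((hcb.pow_left j).pow_right (j + 1))).eq, mul_assoc]
      _ = _ := by
        rw [← pow_add, Nat.choose_succ_succ' j 1, Nat.choose_one_right]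

/-- Exponents of group elements lying in a cyclic subgroup. -/
theorem exists_nat_pow {G : Type*} [Group G] [Finite G] {η x : G} (hx : x ∈ Subgroup.zpowers η) :
    ∃ k : ℕ, η ^ k = x :=
  (mem_powers_iff_mem_zpowers).2 hx

namespace Crit

variable {H V : Type*} [Group H] [AddCommGroup V] [DistribMulAction H V] {q p : ℕ}
variable {F : Type*} [Field F]

/-- The data of the semilinear situation. -/
structure Semi (C : Crit q p H V) (P : Sylow p H) (η : H) (n : ℕ) (Φ : F →+* AddMonoid.End V) (u : F)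
    (σ : ↥(P : Subgroup H) → F →+* F) : Prop where
  mem : η ∈ (P : Subgroup H)
  norm : ∀ g ∈ (P : Subgroup H), g * η * g⁻¹ ∈ Subgroup.zpowers η
  self : ∀ g ∈ (P : Subgroup H), g * η = η * g → g ∈ Subgroup.zpowers η
  ord : orderOf η = p ^ n
  hu : Φ u = act V η
  gen : Subfield.closure ({u} : Set F) = ⊤
  semi : ∀ (g : ↥(P : Subgroup H)) (x : F) (v : V), (g : H) • Φ x v = Φ (σ g x) ((g : H) • v)

variable {C : Crit q p H V} {P : Sylow p H} {η : H} {n : ℕ} {Φ : F →+* AddMonoid.End V} {u : F}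
variable {σ : ↥(P : Subgroup H) → F →+* F}

namespace Semi

variable (D : Semi C P η n Φ u σ)
include D

theorem inj : Function.Injective Φ := by
  have := C.nontrivial_V
  have : Nontrivial (AddMonoid.End V) := by
    obtain ⟨v, hv⟩ := exists_ne (0 : V)
    exact ⟨⟨1, 0, fun h => hv (congrArg (fun f : AddMonoid.End V => f v) h)⟩⟩
  exact Φ.injective

theorem free {x : F} {v : V} (h : Φ x v = 0) : x = 0 ∨ v = 0 := by
  rcases eq_or_ne x 0 with hx | hx
  · exact Or.inl hx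
  right
  have := congrArg (fun w => Φ x⁻¹ w) h
  simp only [map_zero] at this
  rwa [← Function.comp_apply (f := Φ x⁻¹), ← AddMonoid.End.coe_mul, ← map_mul, inv_mul_cancel₀ hx,
    map_one, AddMonoid.End.coe_one, id_eq] at this

theorem pow_apply (k : ℕ) (v : V) : Φ (u ^ k) v = η ^ k • v := by
  rw [map_pow, D.hu, ← map_pow, act_apply]

theorem orderOf_u : orderOf u = p ^ n := by
  rw [← orderOf_injective Φ.toMonoidHom D.inj u, ← D.ord]
  change orderOf (Φ u) = _
  rw [D.hu, orderOf_injective _ C.act_injective]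

theorem u_ne_zero : u ≠ 0 := by
  rintro rfl
  have := D.orderOf_u
  rw [orderOf_zero] at this
  exact (pow_pos C.pp.pos n).ne' this.symm

theorem σ_mul (g g' : ↥(P : Subgroup H)) (x : F) : σ (g * g') x = σ g (σ g' x) := by
  refine D.inj (DFunLike.ext _ _ fun w => ?_)
  obtain ⟨v, rfl⟩ : ∃ v, ((g * g' : ↥(P : Subgroup H)) : H) • v = w := ⟨_, smul_inv_smul _ w⟩
  rw [← D.semi]
  rw [Subgroup.coe_mul, mul_smul, mul_smul, D.semi, D.semi]

theorem σ_one (x : F) : σ 1 x = x := by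
  refine D.inj (DFunLike.ext _ _ fun w => ?_)
  have := D.semi 1 x w
  rw [OneMemClass.coe_one, one_smul, one_smul] at this
  exact this.symm

theorem ext_hom {f f' : F →+* F} (h : f u = f' u) : f = f' := by
  refine RingHom.ext fun x => ?_
  have hle : Subfield.closure ({u} : Set F) ≤ f.eqLocusField f' :=
    Subfield.closure_le.2 (Set.singleton_subset_iff.2 h)
  rw [D.gen] at hle
  exact hle (Subfield.mem_top x)

theorem σ_u [Finite H] (g : ↥(P : Subgroup H)) {k : ℕ} (hk : η ^ k = (g : H) * η * (g : H)⁻¹) :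
    σ g u = u ^ k := by
  refine D.inj (DFunLike.ext _ _ fun w => ?_)
  obtain ⟨v, rfl⟩ : ∃ v, (g : H) • v = w := ⟨_, smul_inv_smul _ w⟩
  rw [← D.semi, D.pow_apply, hk, D.hu, act_apply, mul_smul, mul_smul, inv_smul_smul]

theorem σ_fix_iff (g : ↥(P : Subgroup H)) : σ g u = u ↔ (g : H) ∈ Subgroup.zpowers η := by
  constructor
  · intro h
    refine D.self _ g.2 (C.act_injective (AddMonoidHom.ext fun v => ?_))
    have := D.semi g u v
    rw [h, D.hu] at this
    change ((g : H) * η) • v = (η * (g : H)) • v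
    rw [mul_smul, mul_smul]
    exact this
  · intro h
    refine D.inj (DFunLike.ext _ _ fun w => ?_)
    obtain ⟨v, rfl⟩ : ∃ v, (g : H) • v = w := ⟨_, smul_inv_smul _ w⟩
    rw [← D.semi, D.hu, act_apply, act_apply, ← mul_smul, ← mul_smul]
    obtain ⟨j, hj⟩ := h
    have hc : (g : H) * η = η * (g : H) := by
      rw [← hj]; exact ((Commute.refl η).zpow_left j).eq
    rw [hc]

theorem pow_u_eq_iff {a b : ℕ} : u ^ a = u ^ b ↔ a ≡ b [MOD p ^ n] := by
  rw [← D.inj.eq_iff, map_pow, map_pow, D.hu, ← map_pow, ← map_pow, C.act_injective.eq_iff,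
    pow_eq_pow_iff_modEq, D.ord]

/-- Nothing of order `p` modulo the cyclic subgroup fixes the small roots. -/
theorem key [Finite H] [Finite V] [Finite F] (g : ↥(P : Subgroup H)) (hg : (g : H) ∉ Subgroup.zpowers η)
    (hgp : (g : H) ^ p ∈ Subgroup.zpowers η)
    (h2 : p = 2 → 2 ≤ n ∧ σ g (u ^ 2 ^ (n - 2)) = u ^ 2 ^ (n - 2)) : False := by
  have := Fact.mk C.pp
  have hn1 : 1 ≤ n := by
    by_contra h
    have h0 : n = 0 := by omega
    have : η = 1 := orderOf_eq_one_iff.1 (by rw [D.ord, h0, pow_zero])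
    exact hg (D.self _ g.2 (by rw [this, mul_one, one_mul]))
  obtain ⟨k, hk⟩ := exists_nat_pow (D.norm _ g.2)
  have hσu := D.σ_u g hk
  have hu := D.orderOf_u
  have hiter : ∀ j : ℕ, σ (g ^ j) u = u ^ k ^ j := by
    intro j
    induction j with
    | zero => rw [pow_zero, D.σ_one, pow_zero, pow_one]
    | succ j ih => rw [pow_succ, D.σ_mul, hσu, map_pow, ih, ← pow_mul, pow_succ]
  have hkp : k ^ p ≡ 1 [MOD p ^ n] := by
    rw [← D.pow_u_eq_iff, ← hiter p, pow_one]
    exact (D.σ_fix_iff _).2 (by simpa using hgp)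
  have hk1 : k ≡ 1 [MOD p] := by
    have h1 : k ^ p ≡ 1 [MOD p] := hkp.of_dvd (dvd_pow_self p (by omega))
    rw [← ZMod.natCast_eq_natCast_iff] at h1 ⊢
    rwa [Nat.cast_pow, ZMod.pow_card] at h1
  have hkpos : 1 ≤ k := by
    by_contra h
    have h0 : k = 0 := by omega
    rw [h0] at hk1
    exact C.pp.one_lt.ne' (Nat.dvd_one.1 ((Nat.modEq_iff_dvd' (Nat.zero_le 1)).1 hk1))
  have hk4 : p = 2 → k ≡ 1 [MOD 4] := by
    intro hp2
    obtain ⟨hn2, hfix⟩ := h2 hp2
    rw [map_pow, hσu, ← pow_mul, D.pow_u_eq_iff, hp2,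
      show 2 ^ n = 2 ^ (n - 2) * 4 by rw [show (4 : ℕ) = 2 ^ 2 by rfl, ← pow_add]; congr 1; omega] at hfix
    nth_rw 3 [show 2 ^ (n - 2) = 2 ^ (n - 2) * 1 by rw [mul_one]] at hfix
    rw [mul_comm k] at hfix
    exact Nat.ModEq.mul_left_cancel' (pow_ne_zero _ two_ne_zero) hfix
  have hkn := modEq_one_of_pow C.pp hk1 hk4 hkpos hkp
  have hn2 : 2 ≤ n := by
    by_contra h
    have h1 : n = 1 := by omega
    refine hg ((D.σ_fix_iff g).1 ?_)
    rw [hσu]
    conv_rhs => rw [← pow_one u]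
    rw [D.pow_u_eq_iff, h1, pow_one]
    exact hk1
  set t := k - 1
  have ht : p ^ (n - 1) ∣ t := (Nat.modEq_iff_dvd' hkpos).1 hkn.symm
  have htp : p ∣ t := (Nat.modEq_iff_dvd' hkpos).1 hk1.symm
  have hw : p ^ 2 ∣ t * p.choose 2 := by
    rcases C.pp.eq_two_or_odd with h | h
    · have h4 := (Nat.modEq_iff_dvd' hkpos).1 (hk4 h).symm
      subst h
      simpa using h4
    · rw [pow_two]
      exact mul_dvd_mul htp (C.pp.dvd_choose_self two_ne_zero (by have := C.pp.two_le; omega))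
  obtain ⟨w', hw'⟩ := hw
  set z := η ^ p ^ (n - 1)
  have hzord : orderOf z = p := by
    rw [orderOf_pow' η (pow_ne_zero _ C.pp.ne_zero), D.ord,
      Nat.gcd_eq_right (pow_dvd_pow p (Nat.sub_le n 1)), Nat.pow_div (Nat.sub_le n 1) C.pp.pos,
      show n - (n - 1) = 1 by omega, pow_one]
  have hgη : ∀ j : ℕ, (g : H) * η ^ j * (g : H)⁻¹ = η ^ (k * j) := fun j => by
    rw [← conj_pow, ← hk, ← pow_mul]
  have hcomm : ∀ j : ℕ, p ∣ j → (g : H) * η ^ j = η ^ j * (g : H) := by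
    rintro j ⟨i, rfl⟩
    have h3 : (g : H) * η ^ (p * i) * (g : H)⁻¹ = η ^ (p * i) := by
      rw [hgη, pow_eq_pow_iff_modEq, D.ord]
      refine Nat.ModEq.trans ?_ (Nat.ModEq.refl _)
      conv_rhs => rw [← one_mul (p * i)]
      have h4 : k * p ≡ 1 * p [MOD p ^ n] := by
        have := hkn.mul_right' p
        rwa [← pow_succ, show n - 1 + 1 = n by omega] at this
      rw [← mul_assoc, ← mul_assoc]
      exact h4.mul_right i
    exact mul_inv_eq_iff_eq_mul.1 h3
  obtain ⟨m, hm⟩ := exists_nat_pow hgp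
  have hpm : p ∣ m := by
    by_contra hpm
    obtain ⟨i, hi⟩ := exists_pow_eq_self_of_coprime (x := η) (n := m)
      (by rw [D.ord]; exact Nat.Coprime.pow_right n (C.pp.coprime_iff_not_dvd.2 hpm).symm)
    refine hg (D.self _ g.2 ?_)
    rw [← hi, hm]
    exact ((Commute.refl (g : H)).pow_right p).pow_right i |>.eq
  obtain ⟨m', rfl⟩ := hpm
  set w := 1 + p * w' with hwdef
  have hwc : Nat.Coprime w (p ^ n) := Nat.Coprime.pow_right n
    (Nat.Coprime.symm (C.pp.coprime_iff_not_dvd.2 fun h => C.pp.one_lt.ne'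
      (Nat.dvd_one.1 ((Nat.dvd_add_left (dvd_mul_right p w')).1 h))))
  have hci : ∀ i : ℕ, (η ^ i * (g : H)) ^ p = η ^ (p * (i * w + m')) := by
    intro i
    have hc : Commute (η ^ (t * i)) (g : H) := (hcomm _ (dvd_mul_of_dvd_left htp i)).symm
    have hrule : (g : H) * η ^ i = η ^ (t * i) * (η ^ i * (g : H)) := by
      rw [← mul_assoc, ← pow_add, ← mul_inv_eq_iff_eq_mul, hgη]
      congr 1
      rw [show k = t + 1 by omega, add_mul, one_mul]
    rw [mul_pow_of_rule hrule ((Commute.refl η).pow_pow _ _) hc p, ← hm, ← pow_mul, ← pow_mul, ← pow_add,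
      ← pow_add]
    congr 1
    have hw2 : t * i * p.choose 2 = p * (i * (p * w')) := by
      calc t * i * p.choose 2 = (t * p.choose 2) * i := by ring
        _ = _ := by rw [hw']; ring
    rw [hw2, hwdef]; ring
  obtain ⟨i, hi⟩ : ∃ i : ℕ, p ^ n ∣ i * w + m' := by
    have : NeZero (p ^ n) := ⟨pow_ne_zero _ C.pp.ne_zero⟩
    refine ⟨((-(m' : ZMod (p ^ n))) * ((ZMod.unitOfCoprime w hwc)⁻¹ : (ZMod (p ^ n))ˣ)).val, ?_⟩
    rw [← ZMod.natCast_eq_zero_iff, Nat.cast_add, Nat.cast_mul, ZMod.natCast_zmod_val, mul_assoc]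
    rw [← ZMod.coe_unitOfCoprime w hwc, Units.inv_mul, mul_one, neg_add_cancel]
  set b := η ^ i * (g : H) with hb
  have hbp : b ^ p = 1 := by
    rw [hci, orderOf_dvd_iff_pow_eq_one.1]
    rw [D.ord]
    exact dvd_mul_of_dvd_right hi p
  have hηi : η ^ i ∈ Subgroup.zpowers η := ⟨i, zpow_natCast η i⟩
  have hbA : b ∉ Subgroup.zpowers η := fun h => hg (by
    have := mul_mem (inv_mem hηi) h
    rwa [hb, inv_mul_cancel_left] at this)
  have hbP : b ∈ (P : Subgroup H) := mul_mem (pow_mem D.mem i) g.2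
  have hzb : Commute z b := by
    have hz : Commute z (η ^ i) := (Commute.refl η).pow_pow _ _
    exact hz.mul_right (hcomm _ (dvd_pow_self p (by omega))).symm
  set S := Subgroup.zpowers z ⊔ Subgroup.zpowers b
  have hScl : S = Subgroup.closure ({z, b} : Set H) := by
    rw [Set.insert_eq, Subgroup.closure_union, ← Subgroup.zpowers_eq_closure, ← Subgroup.zpowers_eq_closure]
  have hSc : ∀ x ∈ S, ∀ y ∈ S, x * y = y * x := by
    have hc : ∀ x ∈ ({z, b} : Set H), ∀ y ∈ ({z, b} : Set H), x * y = y * x := by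
      rintro x (rfl | rfl) y (rfl | rfl)
      · rfl
      · exact hzb.eq
      · exact hzb.eq.symm
      · rfl
    intro x hx y hy
    rw [hScl] at hx hy
    exact congrArg Subtype.val ((Subgroup.closureCommGroupOfComm hc).mul_comm ⟨x, hx⟩ ⟨y, hy⟩)
  have hSn : ∀ y ∈ (P : Subgroup H), ∀ a ∈ S, y * a * y⁻¹ ∈ S := by
    intro y hy
    suffices S ≤ S.comap (MulAut.conj y).toMonoidHom from fun a ha => this ha
    obtain ⟨ky, hky⟩ := exists_nat_pow (D.norm y hy)
    have hyη : ∀ j : ℕ, y * η ^ j * y⁻¹ = η ^ (ky * j) := fun j => by rw [← conj_pow, ← hky, ← pow_mul]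
    refine sup_le (Subgroup.zpowers_le.2 ?_) (Subgroup.zpowers_le.2 ?_)
    · refine Subgroup.mem_sup_left ?_
      change y * η ^ p ^ (n - 1) * y⁻¹ ∈ Subgroup.zpowers z
      rw [hyη, mul_comm, pow_mul]
      exact ⟨ky, zpow_natCast z ky⟩
    · change y * b * y⁻¹ ∈ S
      have hP' : y * (g : H) * y⁻¹ * (g : H)⁻¹ ∈ (P : Subgroup H) :=
        mul_mem (mul_mem (mul_mem hy g.2) (inv_mem hy)) (inv_mem g.2)
      have hfix : σ ⟨_, hP'⟩ u = u := by
        have e : (⟨_, hP'⟩ : ↥(P : Subgroup H)) = ⟨y, hy⟩ * g * ⟨y, hy⟩⁻¹ * g⁻¹ := rfl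
        rw [e]
        have hcm : ∀ g₁ g₂ : ↥(P : Subgroup H), σ (g₁ * g₂) u = σ (g₂ * g₁) u := by
          intro g₁ g₂
          obtain ⟨k₁, hk₁⟩ := exists_nat_pow (D.norm _ g₁.2)
          obtain ⟨k₂, hk₂⟩ := exists_nat_pow (D.norm _ g₂.2)
          rw [D.σ_mul, D.σ_mul, D.σ_u g₁ hk₁, D.σ_u g₂ hk₂, map_pow, map_pow, D.σ_u g₁ hk₁, D.σ_u g₂ hk₂,
            ← pow_mul, ← pow_mul, mul_comm]
        set y' : ↥(P : Subgroup H) := ⟨y, hy⟩
        have hsplit : y' * g * y'⁻¹ * g⁻¹ = (y' * g) * (g * y')⁻¹ := by group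
        have hσext : σ (y' * g) = σ (g * y') := D.ext_hom (hcm _ _)
        rw [hsplit, D.σ_mul, hσext, ← D.σ_mul, mul_inv_cancel, D.σ_one]
      obtain ⟨j, hj⟩ := exists_nat_pow ((D.σ_fix_iff _).1 hfix)
      have hygy : y * (g : H) * y⁻¹ = η ^ j * (g : H) := by
        rw [hj]; simp
      have hyb : y * b * y⁻¹ = η ^ (ky * i + j) * (g : H) := by
        rw [pow_add, mul_assoc (η ^ (ky * i)), ← hygy, ← hyη, hb]; group
      have hp1 : (y * b * y⁻¹) ^ p = 1 := by rw [conj_pow, hbp, mul_one, mul_inv_cancel]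
      rw [hyb, hci, ← orderOf_dvd_iff_pow_eq_one, D.ord,
        show p ^ n = p * p ^ (n - 1) by rw [← pow_succ']; congr 1; omega] at hp1
      have h5 := Nat.dvd_of_mul_dvd_mul_left C.pp.pos hp1
      have h6 : p ^ (n - 1) ∣ i * w + m' := (pow_dvd_pow p (Nat.sub_le n 1)).trans hi
      obtain ⟨l, hl⟩ : ∃ l : ℤ, ((ky * i + j : ℕ) : ℤ) - i = (p ^ (n - 1) : ℕ) * l := by
        have h7 : ((p ^ (n - 1) : ℕ) : ℤ) ∣ (((ky * i + j : ℕ) : ℤ) - i) * w := by
          have a1 := Int.natCast_dvd_natCast.2 h5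
          have a2 := Int.natCast_dvd_natCast.2 h6
          have e : (((ky * i + j : ℕ) : ℤ) - i) * w = (((ky * i + j) * w + m' : ℕ) : ℤ) - ((i * w + m' : ℕ) : ℤ) := by
            push_cast; ring
          rw [e]
          exact dvd_sub a1 a2
        have hcop : IsCoprime ((p ^ (n - 1) : ℕ) : ℤ) (w : ℤ) :=
          Nat.Coprime.isCoprime (Nat.Coprime.coprime_dvd_left (pow_dvd_pow p (Nat.sub_le n 1)) hwc.symm)
        exact hcop.dvd_of_dvd_mul_right h7
      have : η ^ (ky * i + j) = z ^ l * η ^ i := by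
        rw [show z = η ^ p ^ (n - 1) from rfl, ← zpow_natCast η (ky * i + j), ← zpow_natCast η i,
          ← zpow_natCast η (p ^ (n - 1)), ← zpow_mul, ← zpow_add, ← hl]
        congr 1; ring
      rw [hyb, this, mul_assoc]
      exact mul_mem (Subgroup.mem_sup_left ⟨l, rfl⟩) (Subgroup.mem_sup_right (Subgroup.mem_zpowers b))
  have hcyc : IsCyclic S := C.isCyclic_of_normalized P hSc hSn
  have hexp : ∀ x : S, x ^ p = 1 := by
    intro ⟨x, hx⟩
    refine Subtype.ext ?_
    change x ^ p = 1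
    rw [hScl] at hx
    induction hx using Subgroup.closure_induction with
    | mem x hx =>
      rcases hx with rfl | rfl
      · rw [← hzord]; exact pow_orderOf_eq_one _
      · exact hbp
    | one => exact one_pow p
    | mul x y hx hy h1 h2 =>
      rw [(show Commute x y from hSc x (hScl ▸ hx) y (hScl ▸ hy)).mul_pow, h1, h2, one_mul]
    | inv x _ h1 => rw [inv_pow, h1, inv_one]
  obtain ⟨s, hs⟩ := IsCyclic.exists_generator (α := S)
  have hle : Subgroup.zpowers z ≤ S := le_sup_left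
  have hcard : Nat.card S ≤ Nat.card (Subgroup.zpowers z) := by
    rw [Nat.card_zpowers, hzord, ← orderOf_eq_card_of_forall_mem_zpowers hs]
    exact Nat.le_of_dvd C.pp.pos (orderOf_dvd_of_pow_eq_one (hexp s))
  have heq : Subgroup.zpowers z = S := Subgroup.eq_of_le_of_card_ge hle hcard
  apply hbA
  have hbS : b ∈ S := Subgroup.mem_sup_right (Subgroup.mem_zpowers b)
  rw [← heq] at hbS
  exact Subgroup.zpowers_le.2 (pow_mem (Subgroup.mem_zpowers η) _) hbS

/-- For odd `p` the Sylow subgroup is the cyclic subgroup. -/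
theorem odd_eq [Finite H] [Finite V] [Finite F] (hp2 : p ≠ 2) : ∀ g ∈ (P : Subgroup H), g ∈ Subgroup.zpowers η := by
  classical
  intro g hg
  by_contra hgA
  have := Fact.mk C.pp
  have hex : ∃ j, g ^ p ^ j ∈ Subgroup.zpowers η := by
    obtain ⟨j, hj⟩ := P.isPGroup' ⟨g, hg⟩
    exact ⟨j, by rw [show g ^ p ^ j = 1 from congrArg Subtype.val hj]; exact one_mem _⟩
  have h0 : Nat.find hex ≠ 0 := fun e => hgA (by simpa [e] using Nat.find_spec hex)
  refine D.key ⟨g ^ p ^ (Nat.find hex - 1), pow_mem hg _⟩ (Nat.find_min hex (by omega)) ?_ (fun h => absurd h hp2)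
  change (g ^ p ^ (Nat.find hex - 1)) ^ p ∈ _
  rw [← pow_mul, ← pow_succ, show Nat.find hex - 1 + 1 = Nat.find hex by omega]
  exact Nat.find_spec hex

/-- For `p = 2` the cyclic subgroup has index at most two. -/
theorem two_index [Finite H] [Finite V] [Finite F] (hp2 : p = 2) (x y : ↥(P : Subgroup H))
    (hx : (x : H) ∉ Subgroup.zpowers η) (hy : (y : H) ∉ Subgroup.zpowers η) :
    ((x⁻¹ * y : ↥(P : Subgroup H)) : H) ∈ Subgroup.zpowers η := by
  classical
  have := Fact.mk C.pp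
  set w := u ^ 2 ^ (n - 2) with hw
  have hw4 : w ^ 4 = 1 := by
    rw [hw, ← pow_mul, ← orderOf_dvd_iff_pow_eq_one, D.orderOf_u, hp2, show (4 : ℕ) = 2 ^ 2 by rfl, ← pow_add]
    exact pow_dvd_pow 2 (by omega)
  have hval : ∀ g : ↥(P : Subgroup H), σ g w = w ∨ σ g w = w ^ 3 := by
    intro g
    obtain ⟨k, hk⟩ := exists_nat_pow (D.norm _ g.2)
    have hσu := D.σ_u g hk
    have hσw : σ g w = w ^ k := by rw [hw, map_pow, hσu, ← pow_mul, ← pow_mul, mul_comm]
    rcases eq_or_ne n 0 with hn | hn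
    · left
      have h1 : u = 1 := orderOf_eq_one_iff.1 (by rw [D.orderOf_u, hn, pow_zero])
      simp [hw, h1]
    have hodd : k % 2 = 1 := by
      by_contra hc
      have hk2 : 2 ∣ k := by omega
      have h1 : orderOf (σ g u) = 2 ^ n := by
        rw [← hp2, ← D.orderOf_u]; exact orderOf_injective (σ g).toMonoidHom (σ g).injective u
      obtain ⟨i, rfl⟩ := hk2
      have h2 : (σ g u) ^ 2 ^ (n - 1) = 1 := by
        rw [hσu, ← pow_mul, ← orderOf_dvd_iff_pow_eq_one, D.orderOf_u, hp2]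
        rw [show 2 * i * 2 ^ (n - 1) = i * (2 ^ (n - 1) * 2) by ring, ← pow_succ,
          show n - 1 + 1 = n by omega]
        exact dvd_mul_left _ _
      have h3 := orderOf_dvd_of_pow_eq_one h2
      rw [h1] at h3
      have := Nat.pow_dvd_pow_iff_le_right (x := 2) one_lt_two |>.1 h3
      omega
    rw [hσw, ← Nat.div_add_mod k 4, pow_add, pow_mul, hw4, one_pow, one_mul]
    rcases (by omega : k % 4 = 1 ∨ k % 4 = 3) with h | h <;> rw [h] <;> simp
  have hmove : ∀ g : ↥(P : Subgroup H), σ g w = w → (g : H) ∈ Subgroup.zpowers η := by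
    intro g hg
    by_cases hn : n ≤ 2
    · refine (D.σ_fix_iff g).1 ?_
      rwa [hw, show n - 2 = 0 by omega, pow_zero, pow_one] at hg
    by_contra hgA
    have hex : ∃ j, (g : H) ^ p ^ j ∈ Subgroup.zpowers η := by
      obtain ⟨j, hj⟩ := P.isPGroup' g
      exact ⟨j, by rw [show (g : H) ^ p ^ j = 1 from congrArg Subtype.val hj]; exact one_mem _⟩
    have h0 : Nat.find hex ≠ 0 := fun e => hgA (by simpa [e] using Nat.find_spec hex)
    have hpowfix : ∀ j : ℕ, σ (g ^ j) w = w := by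
      intro j
      induction j with
      | zero => rw [pow_zero, D.σ_one]
      | succ j ih => rw [pow_succ, D.σ_mul, hg, ih]
    refine D.key (g ^ p ^ (Nat.find hex - 1)) ?_ ?_ (fun _ => ⟨by omega, hpowfix _⟩)
    · rw [Subgroup.coe_pow]; exact Nat.find_min hex (by omega)
    · rw [Subgroup.coe_pow, ← pow_mul, ← pow_succ, show Nat.find hex - 1 + 1 = Nat.find hex by omega]
      exact Nat.find_spec hex
  refine hmove _ ?_
  have hx3 : σ x w = w ^ 3 := (hval x).resolve_left fun h => hx (hmove x h)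
  have hy3 : σ y w = w ^ 3 := (hval y).resolve_left fun h => hy (hmove y h)
  rw [D.σ_mul, hy3, ← hx3, ← D.σ_mul, inv_mul_cancel, D.σ_one]

/-- A vector spanning `V` over the field, with a line fixed by the Sylow subgroup. -/
theorem exists_line [Finite H] [Finite V] [Finite F] :
    ∃ v : V, v ≠ 0 ∧ (∀ g : ↥(P : Subgroup H), ∃ c : F, (g : H) • v = Φ c v) ∧ ∀ w : V, ∃ x : F, Φ x v = w := by
  classical
  have := C.nontrivial_V
  suffices h : ∃ v : V, v ≠ 0 ∧ ∀ g : ↥(P : Subgroup H), ∃ c : F, (g : H) • v = Φ c v by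
    obtain ⟨v, hv, hc⟩ := h
    refine ⟨v, hv, hc, ?_⟩
    let W : AddSubgroup V :=
      { carrier := Set.range fun x : F => Φ x v
        zero_mem' := ⟨0, by simp⟩
        add_mem' := by rintro _ _ ⟨a, rfl⟩ ⟨b, rfl⟩; exact ⟨a + b, by simp only [map_add]; rfl⟩
        neg_mem' := by rintro _ ⟨a, rfl⟩; exact ⟨-a, by simp only [map_neg]; rfl⟩ }
    rcases C.irredP P W (by
      rintro g hg _ ⟨x, rfl⟩
      obtain ⟨c, hcg⟩ := hc ⟨g, hg⟩
      refine ⟨σ ⟨g, hg⟩ x * c, ?_⟩
      change Φ (σ ⟨g, hg⟩ x * c) v = g • Φ x v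
      rw [map_mul, AddMonoid.End.coe_mul, Function.comp_apply, ← hcg]
      exact (D.semi ⟨g, hg⟩ x v).symm) with hb | ht
    · exact absurd (AddSubgroup.mem_bot.1 (hb ▸ (⟨1, by simp⟩ : v ∈ W))) hv
    · exact fun w => (ht ▸ AddSubgroup.mem_top w : w ∈ W)
  by_cases hall : ∀ g ∈ (P : Subgroup H), g ∈ Subgroup.zpowers η
  · obtain ⟨v, hv⟩ := exists_ne (0 : V)
    refine ⟨v, hv, fun g => ?_⟩
    obtain ⟨j, hj⟩ := exists_nat_pow (hall g g.2)
    exact ⟨u ^ j, by rw [D.pow_apply, hj]⟩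
  push Not at hall
  obtain ⟨τ₀, hτP, hτA⟩ := hall
  have hp2 : p = 2 := by
    by_contra h
    exact hτA (D.odd_eq h τ₀ hτP)
  set τ : ↥(P : Subgroup H) := ⟨τ₀, hτP⟩
  have hτ2 : ((τ * τ : ↥(P : Subgroup H)) : H) ∈ Subgroup.zpowers η := by
    by_contra h
    have := D.two_index hp2 τ (τ * τ) hτA h
    rw [inv_mul_cancel_left] at this
    exact hτA this
  have hσσ : ∀ x, σ τ (σ τ x) = x := by
    intro x
    have := D.ext_hom (f := σ (τ * τ)) (f' := RingHom.id F) ((D.σ_fix_iff _).2 hτ2)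
    rw [← D.σ_mul, this]; rfl
  obtain ⟨m, hm⟩ := exists_nat_pow hτ2
  have hlfix : σ τ (u ^ m) = u ^ m := by
    refine D.inj (DFunLike.ext _ _ fun w => ?_)
    obtain ⟨v, rfl⟩ : ∃ v, (τ : H) • v = w := ⟨_, smul_inv_smul _ w⟩
    rw [← D.semi, D.pow_apply, D.pow_apply, hm, Subgroup.coe_mul, ← mul_smul, ← mul_smul, mul_assoc]
  have hl0 : u ^ m ≠ 0 := pow_ne_zero _ D.u_ne_zero
  have hlinv : σ τ (u ^ m)⁻¹ = (u ^ m)⁻¹ := by rw [map_inv₀, hlfix]
  have hθ : σ τ u ≠ u := fun h => hτA ((D.σ_fix_iff τ).1 h)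
  have h2F : (2 : F) ≠ 0 := by
    intro h
    obtain ⟨v, hv⟩ := exists_ne (0 : V)
    have h2v : (2 : ℕ) • v = 0 := by
      have := congrArg (fun x => Φ x v) h
      simp only [map_zero] at this
      rw [show ((2 : F)) = ((2 : ℕ) : F) by norm_num, map_natCast] at this
      exact this
    have hd : addOrderOf v ∣ Nat.gcd q 2 :=
      Nat.dvd_gcd (addOrderOf_dvd_of_nsmul_eq_zero (C.tors v)) (addOrderOf_dvd_of_nsmul_eq_zero h2v)
    have hq : Nat.gcd q 2 = 1 := (Nat.coprime_primes C.qp Nat.prime_two).2 (fun e => C.ne (hp2.trans e.symm))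
    rw [hq, Nat.dvd_one, AddMonoid.addOrderOf_eq_one_iff] at hd
    exact hv hd
  obtain ⟨μ, hμ⟩ := exists_mul_conj_eq (σ τ) hσσ u hθ h2F (u ^ m)⁻¹ hlinv
  have hμ0 : μ ≠ 0 := by
    rintro rfl
    rw [zero_mul] at hμ
    exact inv_ne_zero hl0 hμ.symm
  have hmulapp : ∀ a b : F, ∀ w : V, Φ (a * b) w = Φ a (Φ b w) := fun a b w => by
    rw [map_mul, AddMonoid.End.coe_mul, Function.comp_apply]
  let T : V → V := fun w => Φ μ ((τ : H) • w)
  have hTT : ∀ w, T (T w) = w := by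
    intro w
    simp only [T]
    rw [D.semi, ← hmulapp, ← mul_smul, show (τ : H) * τ = η ^ m from by rw [hm]; rfl, ← D.pow_apply,
      ← hmulapp, hμ, inv_mul_cancel₀ hl0, map_one]
    rfl
  obtain ⟨v₀, hv₀⟩ := exists_ne (0 : V)
  obtain ⟨x, hx⟩ : ∃ x : V, x + T x ≠ 0 := by
    by_contra hc
    push Not at hc
    have h1 : T v₀ = -v₀ := eq_neg_of_add_eq_zero_right (hc v₀)
    have h2 : T (Φ u v₀) = -Φ u v₀ := eq_neg_of_add_eq_zero_right (hc _)
    simp only [T] at h1 h2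
    rw [D.semi, ← hmulapp, mul_comm, hmulapp, h1, map_neg, neg_inj] at h2
    have : Φ (σ τ u - u) v₀ = 0 := by
      rw [map_sub]
      change Φ (σ τ u) v₀ - Φ u v₀ = 0
      rw [h2, sub_self]
    exact (D.free this).elim (fun h => hθ (sub_eq_zero.1 h)) hv₀
  set v := x + T x with hvdef
  have hTv : T v = v := by
    have hTadd : T (x + T x) = T x + T (T x) := by simp only [T, smul_add, map_add]
    rw [hvdef, hTadd, hTT, add_comm]
  have hτv : (τ : H) • v = Φ μ⁻¹ v := by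
    conv_rhs => rw [← hTv]
    simp only [T]
    rw [← hmulapp, inv_mul_cancel₀ hμ0, map_one]
    rfl
  refine ⟨v, hx, fun g => ?_⟩
  by_cases hg : (g : H) ∈ Subgroup.zpowers η
  · obtain ⟨j, hj⟩ := exists_nat_pow hg
    exact ⟨u ^ j, by rw [D.pow_apply, hj]⟩
  · obtain ⟨j, hj⟩ := exists_nat_pow (D.two_index hp2 τ g hτA hg)
    refine ⟨σ τ (u ^ j) * μ⁻¹, ?_⟩
    rw [hmulapp, ← hτv, ← D.semi, D.pow_apply, hj]
    rw [← mul_smul, Subgroup.coe_mul, Subgroup.coe_inv, mul_inv_cancel_left]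

end Semi

end Crit

end Cfsg.Agent.Lib.QBaer
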