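import Cfsg.Agent.Lib.QBaer.Perm

/-!
A minimal perfect linear group all of whose orbits have `p`-power length: basic consequences.
-/

open Pointwise

namespace Cfsg.Agent.Lib.QBaer

/-- A critical counterexample to the solvability theorem. -/
structure Crit (q p : ℕ) (H V : Type*) [Group H] [AddCommGroup V] [DistribMulAction H V] : Prop where
  pp : p.Prime
  qp : q.Prime
  ne : p ≠ q
  cop : ¬ q ∣ Nat.card H
  tors : ∀ v : V, q • v = 0
  orb : ∀ v : V, ∃ a, (MulAction.stabilizer H v).index = p ^ a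
  perfect : commutator H = ⊤
  nontriv : Nontrivial H
  faith : ∀ h : H, (∀ v : V, h • v = v) → h = 1
  irred : ∀ W : AddSubgroup V, (∀ h : H, ∀ w ∈ W, h • w ∈ W) → W = ⊥ ∨ W = ⊤
  normal : ∀ N : Subgroup H, N.Normal → N ≠ ⊤ → Group.IsSolvable N

variable {H V : Type*} [Group H] [AddCommGroup V] [DistribMulAction H V] {q p : ℕ}

/-- The endomorphism given by an element. -/
def act (V : Type*) [AddCommGroup V] [DistribMulAction H V] : H →* AddMonoid.End V :=
  DistribMulAction.toAddMonoidEnd H V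

theorem act_apply (h : H) (v : V) : act V h v = h • v := rfl

/-- The ring of endomorphisms generated by a subgroup. -/
abbrev ringE (V : Type*) [AddCommGroup V] [DistribMulAction H V] (A : Subgroup H) :
    Subring (AddMonoid.End V) :=
  Subring.closure (act V '' (A : Set H))

namespace Crit

variable (C : Crit q p H V)
include C

theorem not_solvable : ¬ Group.IsSolvable H := by
  intro hs
  have := C.nontriv
  obtain ⟨n, hn⟩ := (Group.isSolvable_def H).1 hs
  have : ∀ k, derivedSeries H k = ⊤ := fun k => by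
    induction k with
    | zero => exact derivedSeries_zero H
    | succ k ih => rw [derivedSeries_succ, ih, ← commutator_def, C.perfect]
  rw [this n] at hn
  exact top_ne_bot hn

theorem nontrivial_V : Nontrivial V := by
  by_contra h
  rw [not_nontrivial_iff_subsingleton] at h
  have := C.nontriv
  obtain ⟨a, ha⟩ := exists_ne (1 : H)
  exact ha (C.faith a fun v => Subsingleton.elim _ _)

theorem act_injective : Function.Injective (act (H := H) V) := fun a b h => by
  have : a * b⁻¹ = 1 := C.faith _ fun v => by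
    have := congrArg (fun f : AddMonoid.End V => f (b⁻¹ • v)) h
    simp only [act_apply, smul_inv_smul] at this
    rw [mul_smul, this]
  exact mul_inv_eq_one.1 this

theorem exists_smul_eq [Finite H] (P : Sylow p H) (h : H) (v : V) :
    ∃ g ∈ (P : Subgroup H), h • v = g • v := by
  have := Fact.mk C.pp
  obtain ⟨a, ha⟩ := C.orb v
  set S := MulAction.stabilizer H v
  have hmem : h • v ∈ MulAction.orbit H v := MulAction.mem_orbit v h
  have hle : MulAction.orbit ↥(P : Subgroup H) v ⊆ MulAction.orbit H v := by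
    rintro _ ⟨g, rfl⟩
    exact MulAction.mem_orbit v (g : H)
  have hfin : (MulAction.orbit H v).Finite := Set.finite_range _
  have hc : (MulAction.orbit H v).ncard ≤ (MulAction.orbit ↥(P : Subgroup H) v).ncard := by
    rw [← MulAction.index_stabilizer H v, ← MulAction.index_stabilizer ↥(P : Subgroup H) v, ha]
    set T := MulAction.stabilizer ↥(P : Subgroup H) v
    obtain ⟨t, ht⟩ := (P.isPGroup'.to_subgroup T).exists_card_eq
    obtain ⟨e, he⟩ := P.isPGroup'.exists_card_eq
    have hTS : T.map (P : Subgroup H).subtype ≤ S := by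
      rintro _ ⟨g, hg, rfl⟩
      exact hg
    have h1 : p ^ t ∣ Nat.card S := by
      rw [← ht, ← Subgroup.card_map_of_injective (f := (P : Subgroup H).subtype) Subtype.coe_injective]
      exact Subgroup.card_dvd_of_le hTS
    have h2 : p ^ (t + a) ∣ Nat.card H := by
      rw [← S.card_mul_index, ha, pow_add]
      exact mul_dvd_mul h1 dvd_rfl
    obtain ⟨c, hc⟩ := P.pow_dvd_card_of_pow_dvd_card h2
    have h4 := T.card_mul_index
    rw [ht, hc, pow_add, mul_assoc] at h4
    rw [Nat.eq_of_mul_eq_mul_left (pow_pos C.pp.pos t) h4]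
    refine Nat.le_mul_of_pos_right _ (Nat.pos_of_ne_zero fun h0 => ?_)
    rw [h0, mul_zero] at hc
    exact Nat.card_pos.ne' hc
  rw [← Set.eq_of_subset_of_ncard_le hle hc hfin] at hmem
  obtain ⟨g, hg⟩ := hmem
  exact ⟨g, g.2, hg.symm⟩

theorem irredP [Finite H] (P : Sylow p H) (W : AddSubgroup V)
    (hW : ∀ g ∈ (P : Subgroup H), ∀ w ∈ W, g • w ∈ W) : W = ⊥ ∨ W = ⊤ :=
  C.irred W fun h w hw => by
    obtain ⟨g, hg, he⟩ := C.exists_smul_eq P h w
    exact he ▸ hW g hg w hw

theorem sylow_ne_bot [Finite H] (P : Sylow p H) : (P : Subgroup H) ≠ ⊥ := by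
  intro hP
  have := C.nontriv
  obtain ⟨a, ha⟩ := exists_ne (1 : H)
  refine ha (C.faith a fun v => ?_)
  obtain ⟨g, hg, he⟩ := C.exists_smul_eq P a v
  rw [hP, Subgroup.mem_bot] at hg
  rw [he, hg, one_smul]

/-- The Sylow subgroup permutes no decomposition of `V`. -/
theorem no_blocks [Finite H] {ι : Type*} [Fintype ι] (P : Sylow p H) (W : ι → AddSubgroup V)
    (h2 : 1 < Fintype.card ι) (hne : ∀ i, W i ≠ ⊥)
    (hdec : ∀ v, ∃ f : ι → V, (∀ i, f i ∈ W i) ∧ ∑ i, f i = v)
    (huniq : ∀ f : ι → V, (∀ i, f i ∈ W i) → ∑ i, f i = 0 → f = 0)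
    (hperm : ∀ g ∈ (P : Subgroup H), ∀ i, ∃ j, ∀ w ∈ W i, g • w ∈ W j) : False := by
  classical
  have := Fact.mk C.pp
  have hinj : ∀ f f' : ι → V, (∀ i, f i ∈ W i) → (∀ i, f' i ∈ W i) → ∑ i, f i = ∑ i, f' i → f = f' := by
    intro f f' hf hf' he
    have := huniq (f - f') (fun i => (W i).sub_mem (hf i) (hf' i))
      (by simp only [Pi.sub_apply, Finset.sum_sub_distrib, he, sub_self])
    exact sub_eq_zero.1 this
  have hdisj : ∀ i j w, w ∈ W i → w ∈ W j → w ≠ 0 → i = j := by
    intro i j w hi hj hw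
    by_contra hij
    have hm : ∀ k u, u ∈ W k → ∀ l, (Pi.single k u : ι → V) l ∈ W l := fun k u hu l => by
      rcases eq_or_ne l k with rfl | h
      · rwa [Pi.single_eq_same]
      · rw [Pi.single_eq_of_ne h]; exact (W l).zero_mem
    have := hinj _ _ (hm i w hi) (hm j w hj) (by simp)
    have := congrFun this i
    rw [Pi.single_eq_same, Pi.single_eq_of_ne hij] at this
    exact hw this
  have hU : ∀ (h : H) i, ∀ w ∈ W i, ∃ j, h • w ∈ W j := by
    intro h i w hw
    obtain ⟨g, hg, he⟩ := C.exists_smul_eq P h w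
    obtain ⟨j, hj⟩ := hperm g hg i
    exact ⟨j, he ▸ hj w hw⟩
  have hex : ∀ (h : H) i, ∃ j, ∀ w ∈ W i, h • w ∈ W j := by
    intro h i
    obtain ⟨w₀, hw₀, hw0⟩ := (AddSubgroup.bot_or_exists_ne_zero (W i)).resolve_left (hne i)
    obtain ⟨j, hj⟩ := hU h i w₀ hw₀
    refine ⟨j, fun w hw => ?_⟩
    obtain ⟨k, hk⟩ := hU h i w hw
    by_contra hwj
    have hkj : k ≠ j := fun e => hwj (e ▸ hk)
    obtain ⟨l, hl⟩ := hU h i (w₀ - w) ((W i).sub_mem hw₀ hw)
    rw [smul_sub] at hl
    have hm : ∀ m, (Pi.single j (h • w₀) - Pi.single k (h • w) : ι → V) m ∈ W m := fun m => by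
      refine (W m).sub_mem ?_ ?_
      · rcases eq_or_ne m j with rfl | e
        · rwa [Pi.single_eq_same]
        · rw [Pi.single_eq_of_ne e]; exact (W m).zero_mem
      · rcases eq_or_ne m k with rfl | e
        · rwa [Pi.single_eq_same]
        · rw [Pi.single_eq_of_ne e]; exact (W m).zero_mem
    have hl' : ∀ m, (Pi.single l (h • w₀ - h • w) : ι → V) m ∈ W m := fun m => by
      rcases eq_or_ne m l with rfl | e
      · rwa [Pi.single_eq_same]
      · rw [Pi.single_eq_of_ne e]; exact (W m).zero_mem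
    have he := hinj _ _ hm hl' (by simp [Finset.sum_sub_distrib])
    have hej := congrFun he j
    have hek := congrFun he k
    rw [Pi.sub_apply, Pi.single_eq_same, Pi.single_eq_of_ne hkj.symm, sub_zero] at hej
    rw [Pi.sub_apply, Pi.single_eq_same, Pi.single_eq_of_ne hkj, zero_sub] at hek
    rcases eq_or_ne l j with rfl | hlj
    · rw [Pi.single_eq_of_ne hkj, neg_eq_zero, smul_eq_zero_iff_eq] at hek
      exact hwj (by rw [hek, smul_zero]; exact (W _).zero_mem)
    · rw [Pi.single_eq_of_ne hlj.symm, smul_eq_zero_iff_eq] at hej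
      exact hw0 hej
  choose σ hσ using hex
  have hσeq : ∀ (h : H) i j, ∀ w ∈ W i, w ≠ 0 → h • w ∈ W j → σ h i = j := fun h i j w hw hw0 hj =>
    hdisj _ _ _ (hσ h i w hw) hj fun e => hw0 ((smul_eq_zero_iff_eq h).1 e)
  have hσ1 : ∀ i, σ 1 i = i := fun i => by
    obtain ⟨w, hw, hw0⟩ := (AddSubgroup.bot_or_exists_ne_zero (W i)).resolve_left (hne i)
    exact hσeq 1 i i w hw hw0 (by rwa [one_smul])
  have hσm : ∀ a b i, σ (a * b) i = σ a (σ b i) := fun a b i => by
    obtain ⟨w, hw, hw0⟩ := (AddSubgroup.bot_or_exists_ne_zero (W i)).resolve_left (hne i)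
    refine hσeq _ i _ w hw hw0 ?_
    rw [mul_smul]
    exact hσ a _ _ (hσ b i w hw)
  let actH : MulAction H ι := { smul := σ, one_smul := hσ1, mul_smul := hσm }
  have hsub : ∀ (S : Set ι) (h : H), ∃ g : ↥(P : Subgroup H), h • S = g • S := by
    intro S h
    choose w hw hw0 using fun i => (AddSubgroup.bot_or_exists_ne_zero (W i)).resolve_left (hne i)
    let f : ι → V := fun i => if i ∈ S then w i else 0
    obtain ⟨g, hg, he⟩ := C.exists_smul_eq P h (∑ i, f i)
    have hcomp : ∀ a : H, ∀ j, j ∈ a • S ↔ a • f (σ a⁻¹ j) ≠ 0 := fun a j => by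
      rw [Ne, smul_eq_zero_iff_eq, Set.mem_smul_set_iff_inv_smul_mem]
      change σ a⁻¹ j ∈ S ↔ _
      by_cases hj : σ a⁻¹ j ∈ S
      · simp [f, hj, hw0]
      · simp [f, hj]
    have hsum : ∀ a : H, a • ∑ i, f i = ∑ j, a • f (σ a⁻¹ j) := fun a => by
      rw [Finset.smul_sum]
      exact (Equiv.sum_comp (MulAction.toPerm a⁻¹ : Equiv.Perm ι) (fun i => a • f i)).symm
    have hmem : ∀ a : H, ∀ j, a • f (σ a⁻¹ j) ∈ W j := fun a j => by
      by_cases hj : σ a⁻¹ j ∈ S
      · have := hσ a (σ a⁻¹ j) (w (σ a⁻¹ j)) (hw _)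
        rw [← hσm, mul_inv_cancel, hσ1] at this
        simpa [f, hj] using this
      · simp [f, hj]
    rw [hsum, hsum] at he
    have hfun := hinj _ _ (hmem h) (hmem g) he
    refine ⟨⟨g, hg⟩, Set.ext fun j => ?_⟩
    have h3 : ∀ x, x ∈ g • S ↔ x ∈ (⟨g, hg⟩ : ↥(P : Subgroup H)) • S := fun x => Iff.rfl
    rw [← h3, hcomp, hcomp, congrFun hfun j]
  obtain ⟨i, j, hij⟩ := Fintype.exists_pair_of_one_lt_card h2
  rcases C.irred (W i) (fun h w hw => by
    have := perm_trivial P.isPGroup' C.perfect hsub h i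
    exact this ▸ hσ h i w hw) with hb | ht
  · exact hne i hb
  · obtain ⟨w, hw, hw0⟩ := (AddSubgroup.bot_or_exists_ne_zero (W j)).resolve_left (hne j)
    exact hij (hdisj i j w (ht ▸ AddSubgroup.mem_top w) hw hw0)

theorem ringE_comm {A : Subgroup H} (hA : ∀ a ∈ A, ∀ b ∈ A, a * b = b * a) (x y : ringE V A) :
    x * y = y * x := by
  apply Subtype.ext
  have : ∀ a ∈ act V '' (A : Set H), ∀ b ∈ act V '' (A : Set H), a * b = b * a := by
    rintro _ ⟨a, ha, rfl⟩ _ ⟨b, hb, rfl⟩
    rw [← map_mul, ← map_mul, hA a ha b hb]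
  let _ := Subring.closureCommRingOfComm this
  exact congrArg Subtype.val (mul_comm x y)

omit C in
theorem conj_mem_ringE {A : Subgroup H} {g : H} (hg : ∀ a ∈ A, g * a * g⁻¹ ∈ A) {x : AddMonoid.End V}
    (hx : x ∈ ringE V A) : act V g * x * act V g⁻¹ ∈ ringE V A := by
  have hgg : act V g⁻¹ * act V g = 1 := by rw [← map_mul, inv_mul_cancel, map_one]
  have hgg' : act V g * act V g⁻¹ = 1 := by rw [← map_mul, mul_inv_cancel, map_one]
  induction hx using Subring.closure_induction with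
  | mem x hx =>
    obtain ⟨a, ha, rfl⟩ := hx
    rw [← map_mul, ← map_mul]
    exact Subring.subset_closure ⟨_, hg a ha, rfl⟩
  | zero => simp
  | one => rw [mul_one, hgg']; exact one_mem _
  | add x y _ _ hx hy => rw [mul_add, add_mul]; exact add_mem hx hy
  | neg x _ hx => rw [mul_neg, neg_mul]; exact neg_mem hx
  | mul x y _ _ hx hy =>
    have : act V g * (x * y) * act V g⁻¹ = (act V g * x * act V g⁻¹) * (act V g * y * act V g⁻¹) := by
      simp only [mul_assoc]
      rw [← mul_assoc (act V g⁻¹) (act V g), hgg, one_mul]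
    rw [this]
    exact mul_mem hx hy

omit C in
/-- Idempotents with orthogonal sum. -/
theorem range_iff_fixed {f : AddMonoid.End V} (hf : f * f = f) (y : V) :
    y ∈ AddMonoidHom.range (f : V →+ V) ↔ f y = y := by
  constructor
  · rintro ⟨x, rfl⟩
    exact congrArg (fun k : AddMonoid.End V => k x) hf
  · exact fun h => ⟨y, h⟩

/-- The ring of a normalised abelian subgroup is a field. -/
theorem ringE_isField [Finite H] [Finite V] (P : Sylow p H) {A : Subgroup H}
    (hA : ∀ a ∈ A, ∀ b ∈ A, a * b = b * a) (hAn : ∀ g ∈ (P : Subgroup H), ∀ a ∈ A, g * a * g⁻¹ ∈ A) :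
    IsField ↥(ringE V A) := by
  classical
  have hV := C.nontrivial_V
  have hqp := Fact.mk C.qp
  have hfin : Finite (AddMonoid.End V) := Finite.of_injective _ DFunLike.coe_injective
  have hne1 : (1 : AddMonoid.End V) ≠ 0 := fun h => by
    obtain ⟨v, hv⟩ := exists_ne (0 : V)
    exact hv (congrArg (fun f : AddMonoid.End V => f v) h)
  have : Nontrivial ↥(ringE V A) := ⟨⟨1, 0, fun h => hne1 (congrArg Subtype.val h)⟩⟩
  have hcast : ((q : ℕ) : ↥(ringE V A)) = 0 := by
    ext v
    simpa using C.tors v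
  have : CharP ↥(ringE V A) q := (CharP.charP_iff_prime_eq_zero C.qp).2 hcast
  have hcomm := C.ringE_comm (V := V) hA
  let _ : CommRing ↥(ringE V A) := { (ringE V A).toRing with mul_comm := hcomm }
  have hcopA : Nat.Coprime q (Nat.card A) :=
    C.qp.coprime_iff_not_dvd.2 fun h => C.cop (h.trans A.card_subgroup_dvd_card)
  set k := Nat.totient (Nat.card A)
  have hk : 0 < k := Nat.totient_pos.2 Nat.card_pos
  have hfix : ∀ x, ∀ hx : x ∈ ringE V A, (⟨x, hx⟩ : ↥(ringE V A)) ^ (q ^ k) = ⟨x, hx⟩ := by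
    intro x hx
    induction hx using Subring.closure_induction with
    | mem x hx =>
      obtain ⟨a, ha, rfl⟩ := hx
      refine Subtype.ext ?_
      change act V a ^ (q ^ k) = act V a
      rw [← map_pow]
      congr 1
      have hm : q ^ k ≡ 1 [MOD orderOf a] :=
        (Nat.ModEq.pow_totient hcopA).of_dvd (A.orderOf_dvd_natCard ha)
      simpa using pow_eq_pow_iff_modEq.2 hm
    | zero => exact zero_pow (pow_ne_zero _ C.qp.ne_zero)
    | one => exact one_pow _
    | add x y hx' hy' hx hy =>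
      have := add_pow_char_pow (⟨x, hx'⟩ : ↥(ringE V A)) ⟨y, hy'⟩ q k
      rw [hx, hy] at this
      exact this
    | neg x hx' hx =>
      have := add_pow_char_pow (-⟨x, hx'⟩ : ↥(ringE V A)) ⟨x, hx'⟩ q k
      rw [neg_add_cancel, zero_pow (pow_ne_zero _ C.qp.ne_zero), hx] at this
      exact eq_neg_of_add_eq_zero_left this.symm
    | mul x y hx' hy' hx hy =>
      have := mul_pow (⟨x, hx'⟩ : ↥(ringE V A)) ⟨y, hy'⟩ (q ^ k)
      rw [hx, hy] at this
      exact this
  have hidem : ∀ f : ↥(ringE V A), f * f = f → f ≠ 0 → f = 1 := by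
    by_contra hcon
    push Not at hcon
    obtain ⟨f₁, hf₁, hf₁0, hf₁1⟩ := hcon
    have := Fintype.ofFinite ↥(ringE V A)
    let rk : ↥(ringE V A) → ℕ := fun f => Nat.card (AddMonoidHom.range ((f : AddMonoid.End V) : V →+ V))
    obtain ⟨e, he, hmin⟩ := (Finset.univ.filter fun f : ↥(ringE V A) => f * f = f ∧ f ≠ 0).exists_min_image rk
      ⟨f₁, Finset.mem_filter.2 ⟨Finset.mem_univ _, hf₁, hf₁0⟩⟩
    rw [Finset.mem_filter] at he
    have hval : ∀ f : ↥(ringE V A), f * f = f → (f : AddMonoid.End V) * f = f :=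
      fun f hf => congrArg Subtype.val hf
    have he1 : e ≠ 1 := by
      intro h
      have h1 := hmin f₁ (Finset.mem_filter.2 ⟨Finset.mem_univ _, hf₁, hf₁0⟩)
      simp only [rk] at h1
      have htop : AddMonoidHom.range ((e : AddMonoid.End V) : V →+ V) = ⊤ :=
        eq_top_iff.2 fun y _ => ⟨y, by rw [h]; rfl⟩
      rw [htop, AddSubgroup.card_top] at h1
      have h2 := AddSubgroup.eq_top_of_card_eq _
        (le_antisymm (AddSubgroup.card_le_card_addGroup _) h1)
      refine hf₁1 (Subtype.ext (AddMonoidHom.ext fun v => ?_))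
      exact (range_iff_fixed (hval f₁ hf₁) v).1 (h2 ▸ AddSubgroup.mem_top v)
    let cj : ↥(P : Subgroup H) → ↥(ringE V A) → ↥(ringE V A) := fun g f =>
      ⟨act V (g : H) * (f : AddMonoid.End V) * act V (g : H)⁻¹, conj_mem_ringE (hAn g g.2) f.2⟩
    have hcjm : ∀ g g' f, cj g (cj g' f) = cj (g * g') f := fun g g' f => Subtype.ext (by
      simp only [cj, Subgroup.coe_mul, mul_inv_rev, map_mul, mul_assoc])
    let I : Finset ↥(ringE V A) := Finset.univ.filter fun f => ∃ g, f = cj g e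
    have hcjid : ∀ g f, f * f = f → cj g f * cj g f = cj g f := fun g f hf => Subtype.ext (by
      change act V (g : H) * ↑f * act V (g : H)⁻¹ * (act V (g : H) * ↑f * act V (g : H)⁻¹) = _
      have hgg : act V (g : H)⁻¹ * act V (g : H) = 1 := by rw [← map_mul, inv_mul_cancel, map_one]
      simp only [mul_assoc]
      rw [← mul_assoc (act V (g : H)⁻¹) (act V (g : H)), hgg, one_mul, ← mul_assoc (f : AddMonoid.End V) ↑f,
        hval f hf]
      simp only [cj, mul_assoc])
    have hcjapp : ∀ g f v, (cj g f : AddMonoid.End V) v = (g : H) • (f : AddMonoid.End V) ((g : H)⁻¹ • v) :=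
      fun g f v => rfl
    have hrk : ∀ g f, rk (cj g f) = rk f := fun g f => by
      refine Nat.card_congr
        { toFun := fun y => ⟨(g : H)⁻¹ • (y : V), ?_⟩
          invFun := fun y => ⟨(g : H) • (y : V), ?_⟩
          left_inv := fun y => Subtype.ext (smul_inv_smul _ _)
          right_inv := fun y => Subtype.ext (inv_smul_smul _ _) }
      · obtain ⟨x, hx⟩ := y.2
        exact ⟨(g : H)⁻¹ • x, by rw [← hx]; exact (inv_smul_smul (g : H) _).symm⟩
      · obtain ⟨x, hx⟩ := y.2
        exact ⟨(g : H) • x, (hcjapp g f _).trans (congrArg ((g : H) • ·)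
          ((congrArg _ (inv_smul_smul _ _)).trans hx))⟩
    have hcj0 : ∀ g f, f ≠ 0 → cj g f ≠ 0 := fun g f hf h => hf (Subtype.ext (AddMonoidHom.ext fun v => by
      have := congrArg (fun k : ↥(ringE V A) => (k : AddMonoid.End V) ((g : H) • v)) h
      simp only [hcjapp, inv_smul_smul] at this
      have h0 : ((0 : ↥(ringE V A)) : AddMonoid.End V) ((g : H) • v) = 0 := rfl
      rw [h0, smul_eq_zero_iff_eq] at this
      exact this))
    have hI : ∀ f ∈ I, f * f = f ∧ f ≠ 0 ∧ rk f = rk e := fun f hf => by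
      obtain ⟨g, rfl⟩ := (Finset.mem_filter.1 hf).2
      exact ⟨hcjid g e he.2.1, hcj0 g e he.2.2, hrk g e⟩
    have horth : ∀ f ∈ I, ∀ f' ∈ I, f ≠ f' → f * f' = 0 := by
      intro f hf f' hf' hne
      by_contra h0
      obtain ⟨hi, -, hr⟩ := hI f hf
      obtain ⟨hi', -, hr'⟩ := hI f' hf'
      have hprod : (f * f') * (f * f') = f * f' := by rw [mul_mul_mul_comm, hi, hi']
      have hm := hmin (f * f') (Finset.mem_filter.2 ⟨Finset.mem_univ _, hprod, h0⟩)
      have hsub : ∀ a b : ↥(ringE V A), AddMonoidHom.range (((a * b : ↥(ringE V A)) : AddMonoid.End V) : V →+ V)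
          ≤ AddMonoidHom.range ((a : AddMonoid.End V) : V →+ V) := fun a b => by
        rintro _ ⟨x, rfl⟩
        exact ⟨(b : AddMonoid.End V) x, rfl⟩
      have e1 := AddSubgroup.eq_of_le_of_card_ge (hsub f f') (hr.le.trans hm)
      have e2 := hsub f' f
      rw [mul_comm f' f] at e2
      have e2' := AddSubgroup.eq_of_le_of_card_ge e2 (hr'.le.trans hm)
      have hfix' : ∀ a : ↥(ringE V A), a * a = a → ∀ b : ↥(ringE V A),
          AddMonoidHom.range ((b : AddMonoid.End V) : V →+ V) ≤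
            AddMonoidHom.range ((a : AddMonoid.End V) : V →+ V) → a * b = b := fun a ha b hb =>
        Subtype.ext (AddMonoidHom.ext fun v => (range_iff_fixed (hval a ha) _).1 (hb ⟨v, rfl⟩))
      have p1 := hfix' f hi f' ((e2'.symm.trans e1).le)
      have p2 := hfix' f' hi' f ((e1.symm.trans e2').le)
      rw [mul_comm] at p2
      exact hne (p2.symm.trans p1)
    have hesum : (e : AddMonoid.End V) ≠ 0 := fun h => he.2.2 (Subtype.ext h)
    have heI : e ∈ I := Finset.mem_filter.2 ⟨Finset.mem_univ _, 1, Subtype.ext (by simp [cj])⟩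
    set s := ∑ f ∈ I, f with hs
    have hfs : ∀ f ∈ I, f * s = f := fun f hf => by
      rw [hs, Finset.mul_sum, Finset.sum_eq_single_of_mem f hf fun f' hf' hne => horth f hf f' hf' hne.symm,
        (hI f hf).1]
    have hss : s * s = s := by
      nth_rw 1 [hs]
      rw [Finset.sum_mul]
      exact Finset.sum_congr rfl hfs
    have hcs : ∀ (g : ↥(P : Subgroup H)) (v : V), (g : H) • (s : AddMonoid.End V) v = (s : AddMonoid.End V) ((g : H) • v) := by
      intro g v
      have hb : ∑ f ∈ I, cj g f = s := by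
        refine Finset.sum_bij' (fun f _ => cj g f) (fun f _ => cj g⁻¹ f) ?_ ?_ ?_ ?_ (fun _ _ => rfl)
        · intro f hf
          obtain ⟨g', rfl⟩ := (Finset.mem_filter.1 hf).2
          exact Finset.mem_filter.2 ⟨Finset.mem_univ _, g * g', hcjm g g' e⟩
        · intro f hf
          obtain ⟨g', rfl⟩ := (Finset.mem_filter.1 hf).2
          exact Finset.mem_filter.2 ⟨Finset.mem_univ _, g⁻¹ * g', hcjm g⁻¹ g' e⟩
        · intro f _
          rw [hcjm, inv_mul_cancel]; exact Subtype.ext (by simp [cj])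
        · intro f _
          rw [hcjm, mul_inv_cancel]; exact Subtype.ext (by simp [cj])
      have hcjs : cj g s = ∑ f ∈ I, cj g f := by
        refine Subtype.ext ?_
        simp only [cj, hs, AddSubmonoidClass.coe_finsetSum, Finset.mul_sum, Finset.sum_mul]
      have := congrArg (fun k : ↥(ringE V A) => (k : AddMonoid.End V) ((g : H) • v)) (hcjs.trans hb)
      simpa only [hcjapp, inv_smul_smul] using this
    have hs1 : s = 1 := by
      rcases C.irredP P (AddMonoidHom.range ((s : AddMonoid.End V) : V →+ V)) (by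
        rintro g hg _ ⟨x, rfl⟩
        exact ⟨g • x, (hcs ⟨g, hg⟩ x).symm⟩) with hb | ht
      · exfalso
        refine he.2.2 ?_
        rw [← hfs e heI]
        refine Subtype.ext (AddMonoidHom.ext fun v => ?_)
        have hv : (s : AddMonoid.End V) v ∈ (⊥ : AddSubgroup V) := hb ▸ ⟨v, rfl⟩
        change (e : AddMonoid.End V) ((s : AddMonoid.End V) v) = 0
        rw [AddSubgroup.mem_bot.1 hv, map_zero]
      · exact Subtype.ext (AddMonoidHom.ext fun v =>
          (range_iff_fixed (hval s hss) v).1 (ht ▸ AddSubgroup.mem_top v))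
    refine C.no_blocks P (ι := ↥I) (fun f => AddMonoidHom.range (((f : ↥(ringE V A)) : AddMonoid.End V) : V →+ V))
      ?_ ?_ ?_ ?_ ?_
    · rw [Fintype.card_coe]
      by_contra hc
      have hI1 : I = {e} := (Finset.eq_of_subset_of_card_le (Finset.singleton_subset_iff.2 heI)
        (by simpa using Nat.le_of_not_lt hc)).symm
      exact he1 (by rw [← hs1, hs, hI1, Finset.sum_singleton])
    · intro f hf
      refine (hI f f.2).2.1 (Subtype.ext (AddMonoidHom.ext fun v => ?_))
      exact AddSubgroup.mem_bot.1 (hf ▸ ⟨v, rfl⟩)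
    · intro v
      refine ⟨fun f => ((f : ↥(ringE V A)) : AddMonoid.End V) v, fun f => ⟨v, rfl⟩, ?_⟩
      rw [Finset.sum_coe_sort I fun f : ↥(ringE V A) => (f : AddMonoid.End V) v]
      have := congrArg (fun k : ↥(ringE V A) => (k : AddMonoid.End V) v) hs1
      simp only [hs, AddSubmonoidClass.coe_finsetSum] at this
      exact (AddMonoidHom.finsetSum_apply (fun i : ↥(ringE V A) => ((i : AddMonoid.End V) : V →+ V)) I v).symm.trans this
    · intro w hw h0
      funext f
      obtain ⟨x, hx⟩ := hw f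
      have h1 := congrArg (fun u => ((f : ↥(ringE V A)) : AddMonoid.End V) u) h0
      simp only [map_sum, map_zero] at h1
      rw [Finset.sum_eq_single f ?_ (by simp)] at h1
      · rw [(range_iff_fixed (hval _ (hI f f.2).1) _).1 ⟨x, hx⟩] at h1
        exact h1
      · intro f' _ hne
        obtain ⟨y, hy⟩ := hw f'
        rw [← hy]
        exact congrArg (fun k : ↥(ringE V A) => (k : AddMonoid.End V) y)
          (horth f f.2 f' f'.2 fun e => hne (Subtype.ext e.symm))
    · intro g hg f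
      have hm : cj ⟨g, hg⟩ f ∈ I := by
        obtain ⟨g', hg'⟩ := (Finset.mem_filter.1 f.2).2
        exact Finset.mem_filter.2 ⟨Finset.mem_univ _, ⟨g, hg⟩ * g', by rw [hg', hcjm]⟩
      refine ⟨⟨_, hm⟩, ?_⟩
      rintro _ ⟨x, rfl⟩
      exact ⟨g • x, (hcjapp _ _ _).trans (congrArg (g • ·) (congrArg _ (inv_smul_smul g x)))⟩
  refine ⟨exists_pair_ne _, hcomm, fun {x} hx => ?_⟩
  have hx' : x ^ (q ^ k) = x := hfix x x.2
  have hQ : 2 ≤ q ^ k := C.qp.two_le.trans (Nat.le_self_pow hk.ne' q)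
  obtain ⟨m, hm⟩ : ∃ m, q ^ k = m + 2 := ⟨q ^ k - 2, by omega⟩
  rw [hm] at hx'
  refine ⟨x ^ m, ?_⟩
  have h1 : (x * x ^ m) * (x * x ^ m) = x * x ^ m := by
    calc (x * x ^ m) * (x * x ^ m) = x ^ (m + 2) * x ^ m := by ring
      _ = x * x ^ m := by rw [hx']
  refine hidem _ h1 fun h0 => hx ?_
  rw [← hx', show x ^ (m + 2) = (x * x ^ m) * x by ring, h0, zero_mul]

/-- Normalised abelian subgroups are cyclic. -/
theorem isCyclic_of_normalized [Finite H] [Finite V] (P : Sylow p H) {A : Subgroup H}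
    (hA : ∀ a ∈ A, ∀ b ∈ A, a * b = b * a) (hAn : ∀ g ∈ (P : Subgroup H), ∀ a ∈ A, g * a * g⁻¹ ∈ A) :
    IsCyclic A := by
  have hf := C.ringE_isField P hA hAn
  let _ := hf.toField
  refine isCyclic_of_subgroup_isDomain (R := ↥(ringE V A))
    { toFun := fun a : A => (⟨act V (a : H), Subring.subset_closure ⟨a, a.2, rfl⟩⟩ : ↥(ringE V A))
      map_one' := Subtype.ext (map_one _)
      map_mul' := fun a b => Subtype.ext (map_mul _ _ _) } ?_
  intro a b h
  exact Subtype.ext (C.act_injective (congrArg Subtype.val h))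

/-- A maximal normalised abelian subgroup of the Sylow subgroup. -/
theorem exists_maximal [Finite H] [Finite V] (P : Sylow p H) :
    ∃ η : H, η ∈ (P : Subgroup H) ∧
      (∀ g ∈ (P : Subgroup H), ∀ a ∈ Subgroup.zpowers η, g * a * g⁻¹ ∈ Subgroup.zpowers η) ∧
      (∀ g ∈ (P : Subgroup H), g * η = η * g → g ∈ Subgroup.zpowers η) := by
  classical
  have := Fact.mk C.pp
  let good : Subgroup H → Prop := fun A => A ≤ (P : Subgroup H) ∧ (∀ a ∈ A, ∀ b ∈ A, a * b = b * a) ∧
    ∀ g ∈ (P : Subgroup H), ∀ a ∈ A, g * a * g⁻¹ ∈ A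
  obtain ⟨A, hA, hmax⟩ := Set.Finite.exists_maximal (Set.toFinite {A | good A})
    ⟨⊥, bot_le, by simp, by simp⟩
  obtain ⟨hAP, hAc, hAn⟩ := hA
  have := C.isCyclic_of_normalized P hAc hAn
  obtain ⟨η, hη⟩ := IsCyclic.exists_generator (α := A)
  have hAz : A = Subgroup.zpowers (η : H) := by
    refine le_antisymm (fun a ha => ?_) (Subgroup.zpowers_le.2 η.2)
    obtain ⟨k, hk⟩ := hη ⟨a, ha⟩
    exact ⟨k, congrArg Subtype.val hk⟩
  refine ⟨η, hAP η.2, hAz ▸ hAn, ?_⟩
  rw [← hAz]
  intro g hg hcg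
  by_contra hgA
  let A' : Subgroup ↥(P : Subgroup H) := A.subgroupOf P
  have hA'n : A'.Normal := ⟨fun a ha x => hAn x x.2 a ha⟩
  let Cn : Subgroup ↥(P : Subgroup H) := Subgroup.centralizer (A' : Set ↥(P : Subgroup H))
  have hgen : ∀ x : H, x * η = η * x → ∀ a ∈ A, x * a = a * x := by
    intro x hx a ha
    rw [hAz] at ha
    obtain ⟨k, rfl⟩ := ha
    exact (Commute.zpow_right hx k)
  have hgC : (⟨g, hg⟩ : ↥(P : Subgroup H)) ∈ Cn :=
    Subgroup.mem_centralizer_iff.2 fun a ha => Subtype.ext (hgen g hcg a ha).symm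
  let π := QuotientGroup.mk' A'
  let N := Cn.map π
  have hN : N.Normal := Subgroup.Normal.map inferInstance π (QuotientGroup.mk'_surjective _)
  have hPq : IsPGroup p (↥(P : Subgroup H) ⧸ A') := P.isPGroup'.to_quotient A'
  have hgN : π ⟨g, hg⟩ ∈ N := Subgroup.mem_map_of_mem _ hgC
  have hg1 : π ⟨g, hg⟩ ≠ 1 := fun h => hgA ((QuotientGroup.eq_one_iff (N := A') _).1 h)
  have hNnt : Nontrivial N := ⟨⟨⟨_, hgN⟩, 1, fun h => hg1 (congrArg Subtype.val h)⟩⟩
  have hdvd : p ∣ Nat.card N := by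
    obtain ⟨n, hn, hn'⟩ := (IsPGroup.nontrivial_iff_card (hPq.to_subgroup N)).1 hNnt
    exact hn' ▸ dvd_pow_self p (by omega)
  have hone : (1 : N) ∈ MulAction.fixedPoints (ConjAct (↥(P : Subgroup H) ⧸ A')) N := fun y =>
    Subtype.ext (by rw [ConjAct.Subgroup.val_conj_smul]; simp)
  have hPc : IsPGroup p (ConjAct (↥(P : Subgroup H) ⧸ A')) := hPq.of_equiv ConjAct.toConjAct
  obtain ⟨b, hb, hb1⟩ := hPc.exists_fixed_point_of_prime_dvd_card_of_fixed_point N hdvd hone
  obtain ⟨x, hxC, hxb⟩ := Subgroup.mem_map.1 b.2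
  have hxA : (x : H) ∉ A := fun h => hb1 (Subtype.ext (by
    rw [← hxb]; exact ((QuotientGroup.eq_one_iff (N := A') x).2 h).symm))
  have hxc : ∀ a ∈ A, (x : H) * a = a * x := fun a ha =>
    congrArg Subtype.val (Subgroup.mem_centralizer_iff.1 hxC ⟨a, hAP ha⟩ ha).symm
  have hxP : ∀ y ∈ (P : Subgroup H), y * x * y⁻¹ * (x : H)⁻¹ ∈ A := by
    intro y hy
    have h1 := hb (ConjAct.toConjAct (π ⟨y, hy⟩))
    have h2 := congrArg Subtype.val h1
    rw [ConjAct.Subgroup.val_conj_smul, ConjAct.toConjAct_smul, ← hxb, ← map_inv, ← map_mul, ← map_mul] at h2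
    have h3 : π (⟨y, hy⟩ * x * ⟨y, hy⟩⁻¹ * x⁻¹) = 1 := by rw [map_mul, h2, map_inv, mul_inv_cancel]
    exact (QuotientGroup.eq_one_iff (N := A') _).1 h3
  let B := A ⊔ Subgroup.zpowers (x : H)
  have hBgood : good B := by
    refine ⟨sup_le hAP (Subgroup.zpowers_le.2 x.2), ?_, ?_⟩
    · have hs : B = Subgroup.closure ((A : Set H) ∪ {(x : H)}) := by
        rw [Subgroup.closure_union, Subgroup.closure_eq, ← Subgroup.zpowers_eq_closure]
      have hc : ∀ a ∈ (A : Set H) ∪ {(x : H)}, ∀ b ∈ (A : Set H) ∪ {(x : H)}, a * b = b * a := by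
        rintro a (ha | rfl) b (hb | rfl)
        · exact hAc a ha b hb
        · exact (hxc a ha).symm
        · exact hxc b hb
        · rfl
      intro a ha b hb
      rw [hs] at ha hb
      exact (Subgroup.closureCommGroupOfComm hc).mul_comm ⟨a, ha⟩ ⟨b, hb⟩ |> congrArg Subtype.val
    · intro y hy
      suffices B ≤ B.comap (MulAut.conj y).toMonoidHom from fun a ha => this ha
      refine sup_le (fun a ha => Subgroup.mem_sup_left (hAn y hy a ha)) (Subgroup.zpowers_le.2 ?_)
      change y * (x : H) * y⁻¹ ∈ B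
      rw [show y * (x : H) * y⁻¹ = (y * x * y⁻¹ * (x : H)⁻¹) * x by group]
      exact mul_mem (Subgroup.mem_sup_left (hxP y hy)) (Subgroup.mem_sup_right (Subgroup.mem_zpowers _))
  exact hxA (hmax hBgood le_sup_left (Subgroup.mem_sup_right (Subgroup.mem_zpowers _)))

end Crit

end Cfsg.Agent.Lib.QBaer
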