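import Mathlib

/-!
Finite field lemmas: Kummer extensions of prime degree, the `p`-part of the norm kernel.
-/

open Polynomial

namespace Cfsg.Agent.Lib.QBaer

/-- `1 + Q + ... + Q^(p-1)` is not divisible by `p ^ 2`. -/
theorem not_sq_dvd_geom {p Q : ℕ} (hp : p.Prime) (h1 : p ∣ Q - 1) (h2 : p = 2 → 4 ∣ Q - 1) (hQ : 1 ≤ Q) :
    ¬ p ^ 2 ∣ ∑ i ∈ Finset.range p, Q ^ i := by
  intro h
  obtain ⟨t, ht⟩ := h1
  have hQe : Q = 1 + p * t := by omega
  have hpw : ∀ i : ℕ, ((Q : ZMod (p ^ 2))) ^ i = 1 + (i : ZMod (p ^ 2)) * (p * t : ℕ) := by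
    have hsq : ((p * t : ℕ) : ZMod (p ^ 2)) * (p * t : ℕ) = 0 := by
      rw [← Nat.cast_mul, (ZMod.natCast_eq_zero_iff _ _).2]
      exact ⟨t * t, by ring⟩
    intro i
    induction i with
    | zero => simp
    | succ i ih =>
      rw [pow_succ (Q : ZMod (p ^ 2)), ih, Nat.cast_succ]
      conv_lhs => rw [hQe, Nat.cast_add, Nat.cast_one]
      linear_combination (i : ZMod (p ^ 2)) * hsq
  have h0 : ((∑ i ∈ Finset.range p, Q ^ i : ℕ) : ZMod (p ^ 2)) = 0 :=
    (ZMod.natCast_eq_zero_iff _ _).2 h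
  rw [Nat.cast_sum] at h0
  simp only [Nat.cast_pow, hpw, Finset.sum_add_distrib, Finset.sum_const, Finset.card_range,
    ← Finset.sum_mul, nsmul_eq_mul, mul_one] at h0
  rw [← Nat.cast_sum, ← Nat.cast_mul, ← Nat.cast_add, ZMod.natCast_eq_zero_iff] at h0
  have h3 : p ^ 2 ∣ (∑ i ∈ Finset.range p, i) * (p * t) := by
    have hsum := Finset.sum_range_id_mul_two p
    rcases hp.eq_two_or_odd with rfl | hodd
    · obtain ⟨u, hu⟩ := h2 rfl
      refine ⟨u, ?_⟩
      rw [Finset.sum_range_succ, Finset.sum_range_succ, Finset.sum_range_zero]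
      omega
    · have : p ∣ (∑ i ∈ Finset.range p, i) * 2 := hsum ▸ dvd_mul_right p _
      have h4 : p ∣ ∑ i ∈ Finset.range p, i :=
        ((Nat.coprime_primes hp Nat.prime_two).2 (by omega)).dvd_of_dvd_mul_right this
      rw [pow_two]
      exact mul_dvd_mul h4 (dvd_mul_right p t)
  have h4 : p ^ 2 ∣ p := (Nat.dvd_add_left h3).1 h0
  have := Nat.le_of_dvd hp.pos h4
  nlinarith [hp.two_le]

variable {F : Type*} [Field F] [Finite F]

/-- The fixed points of `x ↦ x ^ |K|` lie in `K`. -/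
theorem mem_subfield_of_pow_card (K : Subfield F) {x : F} (hx : x ^ Nat.card K = x) : x ∈ K := by
  classical
  have := Fintype.ofFinite F
  set Q := Nat.card K with hQ
  have hQ1 : 1 < Q := Finite.one_lt_card
  let R : Finset F := (X ^ Q - X : F[X]).roots.toFinset
  have hR : R.card ≤ Q :=
    (Multiset.toFinset_card_le _).trans ((card_roots' _).trans_eq (FiniteField.X_pow_card_sub_X_natDegree_eq F hQ1))
  have hmem : ∀ y : F, y ^ Q = y → y ∈ R := fun y hy => by
    simp only [R, Multiset.mem_toFinset]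
    rw [mem_roots (FiniteField.X_pow_card_sub_X_ne_zero F hQ1)]
    simp [hy]
  have hK : ∀ y ∈ (K : Set F).toFinset, y ∈ R := fun y hy => by
    rw [Set.mem_toFinset] at hy
    refine hmem y ?_
    have := FiniteField.pow_card (⟨y, hy⟩ : K)
    rw [← Nat.card_eq_fintype_card] at this
    exact congrArg Subtype.val this
  have he : (K : Set F).toFinset = R := by
    refine Finset.eq_of_subset_of_card_le hK (hR.trans_eq ?_)
    rw [Set.toFinset_card, hQ, Nat.card_eq_fintype_card]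
    exact Fintype.card_congr (Equiv.refl _)
  have := hmem x hx
  rw [← he, Set.mem_toFinset] at this
  exact this

/-- Data of an extension of degree `p` with `p ∣ |K| - 1`. -/
theorem pow_geom_mem (K : Subfield F) {p : ℕ} (hQ : Nat.card F = Nat.card K ^ p) (x : F) :
    x ^ (∑ i ∈ Finset.range p, Nat.card K ^ i) ∈ K := by
  have := Fintype.ofFinite F
  rcases eq_or_ne x 0 with rfl | hx
  · rcases Nat.eq_zero_or_pos (∑ i ∈ Finset.range p, Nat.card K ^ i) with h | h
    · rw [h, pow_zero]; exact K.one_mem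
    · rw [zero_pow h.ne']; exact K.zero_mem
  set Q := Nat.card K
  set S := ∑ i ∈ Finset.range p, Q ^ i
  have hQ1 : 1 < Q := Finite.one_lt_card
  have h1 : x ^ (S * (Q - 1)) = 1 := by
    have : S * (Q - 1) = Fintype.card F - 1 := by
      rw [← Nat.card_eq_fintype_card, hQ]
      have := geom_sum_mul_of_one_le hQ1.le p
      simpa [S] using this
    rw [this]
    exact FiniteField.pow_card_sub_one_eq_one x hx
  refine mem_subfield_of_pow_card K ?_
  calc (x ^ S) ^ Q = (x ^ S) ^ (Q - 1 + 1) := by rw [Nat.sub_add_cancel hQ1.le]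
    _ = x ^ S := by rw [pow_succ, ← pow_mul, h1, one_mul]

/-- In an extension of degree `p` with `p ∣ |K| - 1` (and `4 ∣ |K| - 1` if `p = 2`), a `p`-element modulo
`K` has order at most `p` modulo `K`. -/
theorem pow_prime_mem (K : Subfield F) {p : ℕ} (hp : p.Prime) (hQ : Nat.card F = Nat.card K ^ p)
    (h1 : p ∣ Nat.card K - 1) (h2 : p = 2 → 4 ∣ Nat.card K - 1) {x : F} (hx0 : x ≠ 0) {k : ℕ}
    (hx : x ^ p ^ k ∈ K) : x ^ p ∈ K := by
  rcases Nat.eq_zero_or_pos k with rfl | hk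
  · rw [pow_zero, pow_one] at hx
    exact pow_mem hx p
  set S := ∑ i ∈ Finset.range p, Nat.card K ^ i
  have hS : ¬ p ^ 2 ∣ S := not_sq_dvd_geom hp h1 h2 Finite.one_lt_card.le
  have hg : Nat.gcd (p ^ k) S ∣ p := by
    obtain ⟨i, -, hi⟩ := (Nat.dvd_prime_pow hp).1 (Nat.gcd_dvd_left (p ^ k) S)
    rw [hi]
    have : i ≤ 1 := by
      by_contra h
      exact hS ((pow_dvd_pow p (by omega : 2 ≤ i)).trans (hi ▸ Nat.gcd_dvd_right _ _))
    calc p ^ i ∣ p ^ 1 := pow_dvd_pow p this
      _ = p := pow_one p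
  obtain ⟨c, hc⟩ := hg
  have hd : x ^ Nat.gcd (p ^ k) S ∈ K := by
    rw [← zpow_natCast, Nat.gcd_eq_gcd_ab, zpow_add₀ hx0, zpow_mul, zpow_mul, zpow_natCast, zpow_natCast]
    exact K.mul_mem (zpow_mem hx _) (zpow_mem (pow_geom_mem K hQ x) _)
  rw [show x ^ p = (x ^ Nat.gcd (p ^ k) S) ^ c by rw [← pow_mul, ← hc]]
  exact pow_mem hd c

/-- The subgroup generated by `K` and a `p`-element modulo `K` outside it has index prime to `p`. -/
theorem index_sup_not_dvd (K : Subfield F) {p : ℕ} (hp : p.Prime) (hQ : Nat.card F = Nat.card K ^ p)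
    (h1 : p ∣ Nat.card K - 1) (h2 : p = 2 → 4 ∣ Nat.card K - 1) (η : Fˣ) (hη : (η : F) ∉ K)
    (hηp : (η : F) ^ p ∈ K) (U : Subgroup Fˣ) (hKU : ∀ u : Fˣ, (u : F) ∈ K → u ∈ U) (hU : η ∈ U) :
    ¬ p ∣ U.index := by
  have := Fact.mk hp
  let KU : Subgroup Fˣ :=
    { carrier := {u | (u : F) ∈ K}
      one_mem' := by simp [K.one_mem]
      mul_mem' := fun {a b} ha hb => by simpa using K.mul_mem ha hb
      inv_mem' := fun {a} ha => by simpa using K.inv_mem ha }
  have hle : KU ≤ U := fun u hu => hKU u hu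
  have hKc : Nat.card KU = Nat.card K - 1 := by
    rw [← Nat.card_units (K : Type _)]
    refine Nat.card_congr
      { toFun := fun u => ⟨⟨(u : Fˣ), u.2⟩, ⟨((u : Fˣ)⁻¹ : Fˣ), by simpa using K.inv_mem u.2⟩,
          Subtype.ext (by simp), Subtype.ext (by simp)⟩
        invFun := fun u => ⟨⟨(u : K), ((u⁻¹ : Kˣ) : K), by exact_mod_cast congrArg Subtype.val u.mul_inv,
          by exact_mod_cast congrArg Subtype.val u.inv_mul⟩, (u : K).2⟩
        left_inv := fun u => Subtype.ext (Units.ext rfl)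
        right_inv := fun u => Units.ext (Subtype.ext rfl) }
  have hidx : KU.index = ∑ i ∈ Finset.range p, Nat.card K ^ i := by
    have h3 := KU.card_mul_index
    rw [hKc, Nat.card_units F, hQ] at h3
    have hQ1 : 1 < Nat.card K := Finite.one_lt_card
    have h4 := geom_sum_mul_of_one_le hQ1.le p
    rw [mul_comm] at h4
    exact Nat.eq_of_mul_eq_mul_left (by omega) (h3.trans h4.symm)
  have hηord : orderOf (QuotientGroup.mk η : Fˣ ⧸ KU) = p := by
    refine orderOf_eq_prime ?_ ?_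
    · rw [← QuotientGroup.mk_pow, QuotientGroup.eq_one_iff]
      change ((η ^ p : Fˣ) : F) ∈ K
      simpa using hηp
    · rw [Ne, QuotientGroup.eq_one_iff]
      exact hη
  have hp1 : p ∣ KU.relIndex U := by
    have hmem : (QuotientGroup.mk η : Fˣ ⧸ KU) ∈ U.map (QuotientGroup.mk' KU) :=
      Subgroup.mem_map_of_mem _ hU
    have h3 := Subgroup.card_dvd_of_le (Subgroup.zpowers_le.2 hmem)
    rw [Nat.card_zpowers, hηord] at h3
    rwa [← Subgroup.relIndex_ker, QuotientGroup.ker_mk'] at h3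
  intro hd
  refine not_sq_dvd_geom hp h1 h2 Finite.one_lt_card.le ?_
  rw [← hidx, ← Subgroup.relIndex_mul_index hle, pow_two]
  exact mul_dvd_mul hp1 hd

/-- A Kummer extension of prime degree. -/
theorem kummer (K : Subfield F) {p : ℕ} (hp : p.Prime) {ω ζ : F} (hωp : ω ^ p ∈ K) (hω : ω ∉ K)
    (hζ : ζ ∈ K) (hζ1 : IsPrimitiveRoot ζ p) (hgen : ∀ R : Subring F, (K : Set F) ⊆ R → ω ∈ R → R = ⊤) :
    Nat.card F = Nat.card K ^ p ∧ (∀ c : Fin p → F, (∀ i, c i ∈ K) → ∑ i, c i * ω ^ (i : ℕ) = 0 → c = 0) ∧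
      ∀ y : F, ∃ c : Fin p → F, (∀ i, c i ∈ K) ∧ y = ∑ i, c i * ω ^ (i : ℕ) := by
  have hω0 : ω ≠ 0 := fun h => hω (h ▸ K.zero_mem)
  set a : K := ⟨ω ^ p, hωp⟩ with ha
  have hirr : Irreducible (X ^ p - C a : K[X]) := by
    refine X_pow_sub_C_irreducible_of_prime hp fun b hb => ?_
    have hb' : (b : F) ^ p = ω ^ p := by simpa [a] using congrArg Subtype.val hb
    have hb0 : (b : F) ≠ 0 := fun h => by
      rw [h, zero_pow hp.ne_zero] at hb'
      exact pow_ne_zero p hω0 hb'.symm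
    have : NeZero p := ⟨hp.ne_zero⟩
    obtain ⟨i, -, hi⟩ := hζ1.eq_pow_of_pow_eq_one (ξ := ω / b) (by rw [div_pow, hb', div_self (pow_ne_zero _ hω0)])
    refine hω ?_
    rw [(div_mul_cancel₀ ω hb0).symm, ← hi]
    exact K.mul_mem (pow_mem hζ i) b.2
  have hmin : X ^ p - C a = minpoly K ω :=
    minpoly.eq_of_irreducible_of_monic hirr (by simp [a]; exact sub_self _) (monic_X_pow_sub_C a hp.ne_zero)
  have hdeg : (minpoly K ω).natDegree = p := by rw [← hmin, natDegree_X_pow_sub_C]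
  have hint : IsIntegral K ω := Algebra.IsIntegral.isIntegral ω
  have htop : IntermediateField.adjoin K ({ω} : Set F) = ⊤ := by
    have h := hgen (IntermediateField.adjoin K ({ω} : Set F)).toSubalgebra.toSubring
      (fun x hx => (IntermediateField.adjoin K ({ω} : Set F)).algebraMap_mem ⟨x, hx⟩)
      (IntermediateField.mem_adjoin_simple_self K ω)
    refine eq_top_iff.2 fun x _ => ?_
    have hx : x ∈ (⊤ : Subring F) := trivial
    rw [← h] at hx
    exact hx
  have hfr : Module.finrank K F = p := by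
    rw [← hdeg, ← IntermediateField.adjoin.finrank hint, htop, IntermediateField.finrank_top']
  have hcard : Nat.card F = Nat.card K ^ p := by
    rw [Module.natCard_eq_pow_finrank (K := K), hfr]
  have hli := linearIndependent_pow (K := K) ω
  rw [hdeg] at hli
  have hkey : ∀ c : Fin p → F, (∀ i, c i ∈ K) → ∑ i, c i * ω ^ (i : ℕ) = 0 → c = 0 := by
    intro c hc h
    have := Fintype.linearIndependent_iff.1 hli (fun i => (⟨c i, hc i⟩ : K)) (by simpa [Subfield.smul_def] using h)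
    funext i
    exact congrArg Subtype.val (this i)
  refine ⟨hcard, hkey, fun y => ?_⟩
  have : Nonempty (Fin p) := ⟨⟨0, hp.pos⟩⟩
  let b := basisOfLinearIndependentOfCardEqFinrank hli (by rw [Fintype.card_fin, hfr])
  refine ⟨fun i => (b.repr y i : F), fun i => (b.repr y i).2, ?_⟩
  conv_lhs => rw [← b.sum_repr y]
  simp [b, Subfield.smul_def]

/-- An element fixed by an involutive automorphism is a norm. -/
theorem exists_mul_conj_eq (σ : F →+* F) (hσ : ∀ x, σ (σ x) = x) (θ : F) (hθ : σ θ ≠ θ)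
    (h2 : (2 : F) ≠ 0) (l : F) (hl : σ l = l) : ∃ μ, μ * σ μ = l := by
  have := Fintype.ofFinite F
  let K : Subfield F := (RingHom.id F).eqLocusField σ
  have hK : ∀ x, x ∈ K ↔ x = σ x := fun x => Iff.rfl
  set j := θ - σ θ with hj
  have hj0 : j ≠ 0 := sub_ne_zero.2 (Ne.symm hθ)
  have hjσ : σ j = -j := by rw [hj, map_sub, hσ]; ring
  have hd : j * j ∈ K := (hK _).2 (by rw [map_mul, hjσ]; ring)
  have : Fintype K := Fintype.ofFinite K
  have hodd : Fintype.card K % 2 = 1 := by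
    refine FiniteField.odd_card_of_char_ne_two fun h => h2 ?_
    have : CharP K 2 := ringChar.of_eq h
    have h3 : ((2 : ℕ) : K) = 0 := CharP.cast_eq_zero K 2
    exact congrArg Subtype.val (show (2 : K) = 0 by simpa using h3)
  set d : K := ⟨j * j, hd⟩
  have hd0 : d ≠ 0 := fun h => hj0 (mul_self_eq_zero.1 (congrArg Subtype.val h))
  obtain ⟨u, w, huw⟩ := FiniteField.exists_root_sum_quadratic (R := K) (f := X ^ 2 - C (⟨l, (hK l).2 hl.symm⟩ : K))
    (g := C (-d) * X ^ 2) (degree_X_pow_sub_C two_pos _)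
    (degree_C_mul_X_pow 2 (neg_ne_zero.2 hd0)) hodd
  refine ⟨(u : F) + j * w, ?_⟩
  simp only [eval_sub, eval_pow, eval_X, eval_C, eval_mul] at huw
  have huw' := congrArg Subtype.val huw
  push_cast at huw'
  rw [map_add, map_mul, hjσ, ← (hK _).1 u.2, ← (hK _).1 w.2]
  linear_combination huw'

/-- A field fixed by `x ↦ x ^ (q ^ 2)` has at most `q ^ 2` elements. -/
theorem card_le_of_pow_eq {N : ℕ} (hN : 1 < N) (h : ∀ x : F, x ^ N = x) : Nat.card F ≤ N := by
  classical
  have := Fintype.ofFinite F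
  have hsub : Finset.univ ⊆ (X ^ N - X : F[X]).roots.toFinset := fun x _ => by
    simp [mem_roots (FiniteField.X_pow_card_sub_X_ne_zero F hN), h x]
  rw [Nat.card_eq_fintype_card]
  exact (Finset.card_le_card hsub).trans
    ((Multiset.toFinset_card_le _).trans
      ((card_roots' _).trans_eq (FiniteField.X_pow_card_sub_X_natDegree_eq F hN)))

end Cfsg.Agent.Lib.QBaer
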