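import Cfsg.Agent.Lib.QBaer.Core
import Cfsg.Agent.Lib.Components.Cores

/-!
The critical configuration does not exist.
-/

open scoped commutatorElement

namespace Cfsg.Agent.Lib.QBaer

namespace Crit

variable {H V : Type*} [Group H] [AddCommGroup V] [DistribMulAction H V] {q p : ℕ}
variable {F : Type*} [Field F]
variable {C : Crit q p H V} {P : Sylow p H} {η : H} {n : ℕ} {Φ : F →+* AddMonoid.End V} {u : F}
variable {σ : ↥(P : Subgroup H) → F →+* F}

namespace Semi

variable (D : Semi C P η n Φ u σ)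
include D

omit D in
theorem mulapp (a b : F) (w : V) : Φ (a * b) w = Φ a (Φ b w) := by
  rw [map_mul, AddMonoid.End.coe_mul, Function.comp_apply]

/-- The field is generated by the `p`-th power of the generator. -/
theorem closure_pow_eq_top [Finite H] [Finite V] [Finite F] (hn : 2 ≤ n) (hn2 : p = 2 → 3 ≤ n) :
    Subfield.closure ({u ^ p} : Set F) = ⊤ := by
  classical
  have := Fact.mk C.pp
  by_contra hne
  set K := Subfield.closure ({u ^ p} : Set F) with hK
  have hup : u ^ p ∈ K := Subfield.subset_closure (Set.mem_singleton _)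
  have huK : u ∉ K := fun h => hne (eq_top_iff.2 (D.gen ▸ Subfield.closure_le.2 (Set.singleton_subset_iff.2 h)))
  obtain ⟨⟨hQ, hindep, hspan⟩, hd1, hd2⟩ := kummer_data (j := 0) C.pp u D.orderOf_u (by omega)
    (fun h => by have := hn2 h; omega) (by simpa using D.gen) K (by simpa using hup) (by simpa using huK)
  simp only [pow_zero, pow_one] at hindep hspan
  have hu0 := D.u_ne_zero
  set uu : Fˣ := Units.mk0 u hu0
  let U : Subgroup Fˣ :=
    { carrier := {x | ∃ c ∈ K, ∃ j : ℕ, (x : F) = c * u ^ j}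
      one_mem' := ⟨1, K.one_mem, 0, by simp⟩
      mul_mem' := by
        rintro a b ⟨c, hc, j, ha⟩ ⟨d, hd, i, hb⟩
        exact ⟨c * d, K.mul_mem hc hd, j + i, by rw [Units.val_mul, ha, hb, pow_add]; ring⟩
      inv_mem' := by
        rintro a ⟨c, hc, j, ha⟩
        have hN : 1 ≤ p ^ n := Nat.one_le_pow _ _ C.pp.pos
        refine ⟨c⁻¹, K.inv_mem hc, (p ^ n - 1) * j, ?_⟩
        rw [Units.val_inv_eq_inv_val, ha, mul_inv]
        congr 1
        refine inv_eq_of_mul_eq_one_left ?_
        rw [← pow_add, show (p ^ n - 1) * j + j = p ^ n * j by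
          nth_rw 2 [← Nat.sub_add_cancel hN]; ring, pow_mul, ← D.orderOf_u, pow_orderOf_eq_one, one_pow] }
  have hU : ¬ p ∣ U.index := index_sup_not_dvd K C.pp hQ hd1 hd2 uu huK hup U
    (fun x hx => ⟨x, hx, 0, by simp⟩) ⟨1, K.one_mem, 1, by simp [uu]⟩
  obtain ⟨v, hv, hcv, hsp⟩ := D.exists_line
  choose c hc using hcv
  have hc0 : ∀ g, c g ≠ 0 := fun g h => hv (by
    have := hc g
    rw [h, map_zero] at this
    exact (smul_eq_zero_iff_eq _).1 this)
  let cu : ↥(P : Subgroup H) → Fˣ := fun g => Units.mk0 (c g) (hc0 g)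
  have hcu : ∀ g g', cu (g * g') = Units.map (σ g).toMonoidHom (cu g') * cu g := by
    intro g g'
    refine Units.ext ?_
    have h1 := hc (g * g')
    rw [Subgroup.coe_mul, mul_smul, hc g', D.semi, hc g, ← mulapp] at h1
    have : Φ (c (g * g') - σ g (c g') * c g) v = 0 := by
      rw [map_sub]
      change Φ (c (g * g')) v - Φ (σ g (c g') * c g) v = 0
      rw [h1, sub_self]
    exact sub_eq_zero.1 ((D.free this).resolve_right hv)
  have hσK : ∀ g, ∀ x ∈ K, σ g x ∈ K := by
    intro g
    obtain ⟨k, hk⟩ := exists_nat_pow (D.norm _ g.2)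
    have hle : K ≤ K.comap (σ g) := by
      refine Subfield.closure_le.2 (Set.singleton_subset_iff.2 ?_)
      change σ g (u ^ p) ∈ K
      rw [map_pow, D.σ_u g hk, ← pow_mul, mul_comm, pow_mul]
      exact pow_mem hup k
    exact fun x hx => hle hx
  have hσU : ∀ g, ∀ x ∈ U, Units.map (σ g).toMonoidHom x ∈ U := by
    rintro g x ⟨d, hd, j, hx⟩
    obtain ⟨k, hk⟩ := exists_nat_pow (D.norm _ g.2)
    refine ⟨σ g d, hσK g d hd, k * j, ?_⟩
    change σ g (x : F) = _
    rw [hx, map_mul, map_pow, D.σ_u g hk, ← pow_mul]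
  let actQ : MulAction ↥(P : Subgroup H) (Fˣ ⧸ U) :=
    { smul := fun g x => QuotientGroup.map U U (Units.map (σ g).toMonoidHom) (fun y hy => hσU g y hy) x * (cu g : Fˣ ⧸ U)
      one_smul := fun x => by
        obtain ⟨y, rfl⟩ := QuotientGroup.mk_surjective x
        change ((Units.map (σ 1).toMonoidHom y : Fˣ) : Fˣ ⧸ U) * (cu 1 : Fˣ ⧸ U) = _
        have h1 : cu 1 = 1 := by
          have := hcu 1 1
          rw [mul_one] at this
          have h2 : Units.map (σ 1).toMonoidHom (cu 1) = cu 1 := Units.ext (D.σ_one _)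
          rw [h2] at this
          exact right_eq_mul.1 this
        rw [h1, QuotientGroup.mk_one, mul_one, show Units.map (σ 1).toMonoidHom y = y from Units.ext (D.σ_one _)]
      mul_smul := fun g g' x => by
        obtain ⟨y, rfl⟩ := QuotientGroup.mk_surjective x
        change ((Units.map (σ (g * g')).toMonoidHom y : Fˣ) : Fˣ ⧸ U) * (cu (g * g') : Fˣ ⧸ U) =
          ((Units.map (σ g).toMonoidHom (Units.map (σ g').toMonoidHom y * cu g') : Fˣ) : Fˣ ⧸ U) * (cu g : Fˣ ⧸ U)
        rw [hcu g g', map_mul, QuotientGroup.mk_mul, QuotientGroup.mk_mul, mul_assoc,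
          show Units.map (σ (g * g')).toMonoidHom y = Units.map (σ g).toMonoidHom (Units.map (σ g').toMonoidHom y)
            from Units.ext (D.σ_mul g g' _)] }
  obtain ⟨x₀, hx₀⟩ := P.isPGroup'.nonempty_fixed_point_of_prime_not_dvd_card (Fˣ ⧸ U) hU
  obtain ⟨y, rfl⟩ := QuotientGroup.mk_surjective x₀
  have hy : ∀ g : ↥(P : Subgroup H), ∃ d ∈ K, ∃ j : ℕ, σ g (y : F) * c g = (y : F) * (d * u ^ j) := by
    intro g
    have h := hx₀ g
    change ((Units.map (σ g).toMonoidHom y : Fˣ) : Fˣ ⧸ U) * (cu g : Fˣ ⧸ U) = (y : Fˣ ⧸ U) at h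
    rw [← QuotientGroup.mk_mul, eq_comm, QuotientGroup.eq] at h
    obtain ⟨d, hd, j, he⟩ := h
    refine ⟨d, hd, j, ?_⟩
    rw [← he, ← Units.val_mul, mul_inv_cancel_left]
    rfl
  let W : Fin p → AddSubgroup V := fun i =>
    { carrier := {w | ∃ d ∈ K, Φ ((y : F) * u ^ (i : ℕ) * d) v = w}
      zero_mem' := ⟨0, K.zero_mem, by simp⟩
      add_mem' := by
        rintro _ _ ⟨a, ha, rfl⟩ ⟨b, hb, rfl⟩
        exact ⟨a + b, K.add_mem ha hb, by rw [mul_add, map_add]; rfl⟩
      neg_mem' := by
        rintro _ ⟨a, ha, rfl⟩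
        exact ⟨-a, K.neg_mem ha, by rw [mul_neg, map_neg]; rfl⟩ }
  refine C.no_blocks P W (by rw [Fintype.card_fin]; exact C.pp.one_lt) ?_ ?_ ?_ ?_
  · intro i hi
    have hm : Φ ((y : F) * u ^ (i : ℕ) * 1) v ∈ W i := ⟨1, K.one_mem, rfl⟩
    rw [hi, AddSubgroup.mem_bot] at hm
    rcases D.free hm with h | h
    · exact mul_ne_zero (mul_ne_zero y.ne_zero (pow_ne_zero _ hu0)) one_ne_zero h
    · exact hv h
  · intro w
    obtain ⟨x, rfl⟩ := hsp w
    obtain ⟨d, hd, hxd⟩ := hspan (x * ((y⁻¹ : Fˣ) : F))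
    refine ⟨fun i => Φ ((y : F) * u ^ (i : ℕ) * d i) v, fun i => ⟨d i, hd i, rfl⟩, ?_⟩
    have hx : x = ∑ i : Fin p, (y : F) * u ^ (i : ℕ) * d i := by
      calc x = (y : F) * (x * ((y⁻¹ : Fˣ) : F)) := by rw [mul_left_comm, Units.mul_inv, mul_one]
        _ = _ := by
          rw [hxd, Finset.mul_sum]
          exact Finset.sum_congr rfl fun i _ => by ring
    rw [hx, map_sum]
    exact (AddMonoidHom.finsetSum_apply _ _ _).symm
  · intro f hf h0
    choose d hd hdf using hf
    have h1 : Φ (∑ i : Fin p, (y : F) * u ^ (i : ℕ) * d i) v = 0 := by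
      rw [map_sum]
      refine (AddMonoidHom.finsetSum_apply _ _ _).trans ?_
      rw [← h0]
      exact Finset.sum_congr rfl fun i _ => hdf i
    have h2 : ∑ i : Fin p, d i * u ^ (i : ℕ) = 0 := by
      have h3 := (D.free h1).resolve_right hv
      rw [show ∑ i : Fin p, (y : F) * u ^ (i : ℕ) * d i = (y : F) * ∑ i : Fin p, d i * u ^ (i : ℕ) by
        rw [Finset.mul_sum]; exact Finset.sum_congr rfl fun i _ => by ring] at h3
      exact (mul_eq_zero.1 h3).resolve_left y.ne_zero
    funext i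
    rw [← hdf i, congrFun (hindep d hd h2) i]
    simp
  · intro g hg i
    obtain ⟨d₀, hd₀, j, hj⟩ := hy ⟨g, hg⟩
    obtain ⟨k, hk⟩ := exists_nat_pow (D.norm g hg)
    refine ⟨⟨(j + k * i) % p, Nat.mod_lt _ C.pp.pos⟩, ?_⟩
    rintro _ ⟨d, hd, rfl⟩
    refine ⟨(u ^ p) ^ ((j + k * i) / p) * σ ⟨g, hg⟩ d * d₀,
      K.mul_mem (K.mul_mem (pow_mem hup _) (hσK _ d hd)) hd₀, ?_⟩
    have h1 : g • Φ ((y : F) * u ^ (i : ℕ) * d) v =
        Φ (σ ⟨g, hg⟩ ((y : F) * u ^ (i : ℕ) * d) * c ⟨g, hg⟩) v := by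
      refine (D.semi ⟨g, hg⟩ _ v).trans ?_
      rw [mulapp _ (c ⟨g, hg⟩) v, ← hc ⟨g, hg⟩]
    refine Eq.trans (congrArg (fun z => Φ z v) ?_) h1.symm
    rw [map_mul, map_mul, map_pow, D.σ_u ⟨g, hg⟩ hk, ← pow_mul u k,
      show σ ⟨g, hg⟩ (y : F) * u ^ (k * (i : ℕ)) * σ ⟨g, hg⟩ d * c ⟨g, hg⟩ =
        (σ ⟨g, hg⟩ (y : F) * c ⟨g, hg⟩) * (u ^ (k * (i : ℕ)) * σ ⟨g, hg⟩ d) by ring, hj]
    change (y : F) * u ^ ((j + k * i) % p) * ((u ^ p) ^ ((j + k * i) / p) * σ ⟨g, hg⟩ d * d₀) = _
    have : u ^ (j + k * i) = u ^ ((j + k * i) % p) * (u ^ p) ^ ((j + k * i) / p) := by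
      rw [← pow_mul, ← pow_add, Nat.mod_add_div]
    rw [pow_add] at this
    linear_combination (-(y : F) * σ ⟨g, hg⟩ d * d₀) * this

/-- The case `p = 2`. -/
theorem two_false [Finite H] [Finite V] [Finite F] (hp2 : p = 2) : False := by
  have hqf := Fact.mk C.qp
  have := C.nontrivial_V
  refine C.small_false ?_
  obtain ⟨v, hv, -, hsp⟩ := D.exists_line
  refine (Nat.card_le_card_of_surjective (fun x : F => Φ x v) hsp).trans ?_
  have : CharP F q := by
    refine (CharP.charP_iff_prime_eq_zero C.qp).2 (D.inj (DFunLike.ext _ _ fun w => ?_))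
    rw [map_natCast, map_zero]
    exact C.tors w
  have hq2 : q ≠ 2 := fun h => C.ne (hp2.trans h.symm)
  have hq : q ^ 2 % 8 = 1 := by
    have hodd : q % 2 = 1 := (C.qp.eq_two_or_odd).resolve_left hq2
    rw [Nat.pow_mod]
    have : q % 8 = 1 ∨ q % 8 = 3 ∨ q % 8 = 5 ∨ q % 8 = 7 := by omega
    rcases this with h | h | h | h <;> rw [h]
  obtain ⟨w, hw8, hwgen⟩ : ∃ w : F, w ^ 8 = 1 ∧ Subfield.closure ({w} : Set F) = ⊤ := by
    by_cases hn : n ≤ 3
    · refine ⟨u, ?_, D.gen⟩
      rw [show (8 : ℕ) = 2 ^ 3 by rfl, ← orderOf_dvd_iff_pow_eq_one, D.orderOf_u, hp2]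
      exact pow_dvd_pow 2 hn
    · refine ⟨u ^ p ^ (n - 3), ?_, closure_pow_top C.pp u D.orderOf_u
        (D.closure_pow_eq_top (by omega) (fun _ => by omega)) (n - 3) (by omega) (fun _ => by omega)⟩
      rw [← pow_mul, ← orderOf_dvd_iff_pow_eq_one, D.orderOf_u, hp2, show (8 : ℕ) = 2 ^ 3 by rfl, ← pow_add]
      exact pow_dvd_pow 2 (by omega)
  refine card_le_of_pow_eq (Nat.one_lt_pow two_ne_zero C.qp.one_lt) fun x => ?_
  have hle : Subfield.closure ({w} : Set F) ≤ (iterateFrobenius F q 2).eqLocusField (RingHom.id F) := by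
    refine Subfield.closure_le.2 (Set.singleton_subset_iff.2 ?_)
    change iterateFrobenius F q 2 w = w
    rw [iterateFrobenius_def, ← Nat.mod_add_div (q ^ 2) 8, hq, pow_add, pow_mul, hw8, one_pow, mul_one, pow_one]
  rw [hwgen] at hle
  have h : iterateFrobenius F q 2 x = x := hle (Subfield.mem_top x)
  rwa [iterateFrobenius_def] at h

omit D in
theorem _root_.Cfsg.Agent.Lib.QBaer.not_solvable_range {H G : Type*} [Group H] [Group G] (f : H →* G)
    (hf : Function.Injective f) (h : ¬ Group.IsSolvable H) : ¬ Group.IsSolvable f.range := by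
  intro hs
  exact h (Group.isSolvable_of_isSolvable_injective (f := f.rangeRestrict)
    fun a b e => hf (congrArg Subtype.val e))

/-- A normal subgroup different from `⊥` and `⊤` forces a central element, hence a contradiction. -/
theorem normal_false [Finite H] [Finite V] [Finite F] (hall : ∀ g ∈ (P : Subgroup H), g ∈ Subgroup.zpowers η)
    (hn : 1 ≤ n) (htop : Subfield.closure ({u ^ p ^ (n - 1)} : Set F) = ⊤)
    (N : Subgroup H) (hNn : N.Normal) (hN : N ≠ ⊤) (hNb : N ≠ ⊥) : False := by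
  classical
  have := Fact.mk C.pp
  have hNs : Group.IsSolvable N := C.normal N hNn hN
  obtain ⟨k, hk⟩ := (Group.isSolvable_def N).1 hNs
  have hex : ∃ k, derivedSeries N k = ⊥ := ⟨k, hk⟩
  have hk0 : Nat.find hex ≠ 0 := fun e => hNb (by
    have h := Nat.find_spec hex
    rw [e, derivedSeries_zero] at h
    have h2 : (⊤ : Subgroup N).map N.subtype = N := by rw [← MonoidHom.range_eq_map, Subgroup.range_subtype]
    rw [← h2, h, Subgroup.map_bot])
  set k₀ := Nat.find hex - 1
  let M : Subgroup H := (derivedSeries N k₀).map N.subtype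
  have hMn : M.Normal := by
    have : (derivedSeries N k₀).Characteristic := derivedSeries_characteristic N k₀
    exact ConjAct.normal_of_characteristic_of_normal
  have hMne : M ≠ ⊥ := fun h => Nat.find_min hex (show k₀ < Nat.find hex by omega)
    ((Subgroup.map_eq_bot_iff_of_injective _ N.subtype_injective).1 h)
  have hMc : ∀ a ∈ M, ∀ b ∈ M, a * b = b * a := by
    rintro _ ⟨a, ha, rfl⟩ _ ⟨b, hb, rfl⟩
    have h1 : derivedSeries N (k₀ + 1) = ⊥ := by
      rw [show k₀ + 1 = Nat.find hex by omega]; exact Nat.find_spec hex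
    rw [derivedSeries_succ, Subgroup.commutator_eq_bot_iff_le_centralizer] at h1
    exact congrArg (fun z : N => (z : H)) (Subgroup.mem_centralizer_iff.1 (h1 ha) b hb).symm
  obtain ⟨m, hm, hm1⟩ := (Subgroup.bot_or_exists_ne_one M).resolve_left hMne
  obtain ⟨t, ht, htd⟩ := Nat.exists_prime_and_dvd (n := orderOf m) (fun h => hm1 (orderOf_eq_one_iff.1 h))
  have htp := Fact.mk ht
  let T : Subgroup H :=
    { carrier := {x | x ∈ M ∧ x ^ t = 1}
      one_mem' := ⟨one_mem M, one_pow t⟩
      mul_mem' := fun {a b} ha hb => ⟨mul_mem ha.1 hb.1, by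
        rw [(show Commute a b from hMc a ha.1 b hb.1).mul_pow, ha.2, hb.2, one_mul]⟩
      inv_mem' := fun {a} ha => ⟨inv_mem ha.1, by rw [inv_pow, ha.2, inv_one]⟩ }
  have hTn : T.Normal := ⟨fun a ha g => ⟨hMn.conj_mem a ha.1 g, by rw [conj_pow, ha.2, mul_one, mul_inv_cancel]⟩⟩
  have hTp : IsPGroup t T := fun x => ⟨1, Subtype.ext (by simpa using x.2.2)⟩
  set x := m ^ (orderOf m / t)
  have hxt : orderOf x = t := orderOf_pow_orderOf_div (orderOf_pos m).ne' htd
  have hxT : x ∈ T := ⟨pow_mem hm _, by rw [← hxt, pow_orderOf_eq_one]⟩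
  have hx1 : x ≠ 1 := fun h => ht.one_lt.ne' (by rw [← hxt, h, orderOf_one])
  have htp' : t = p := by
    by_contra htne
    refine hx1 (C.faith x fun w => ?_)
    obtain ⟨a, ha⟩ := C.orb w
    have hfix : T ≤ MulAction.stabilizer H w := by
      rw [← Subgroup.relIndex_eq_one]
      set S := MulAction.stabilizer H w
      obtain ⟨b, hb⟩ := hTp.exists_card_eq
      have h1 : S.relIndex T ∣ t ^ b := hb ▸ Subgroup.index_dvd_card (S.subgroupOf T)
      obtain ⟨i, -, hi⟩ := (Nat.dvd_prime_pow ht).1 h1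
      have h2 : S.relIndex T ∣ p ^ a := by
        rw [← ha]
        have hmul : ∀ A B : Subgroup H, A ≤ B → A.relIndex B * Nat.card A = Nat.card B := fun A B hAB => by
          rw [← Subgroup.relIndex_bot_left A, ← Subgroup.relIndex_bot_left B, mul_comm,
            Subgroup.relIndex_mul_relIndex _ _ _ bot_le hAB]
        have e1 : S.relIndex T * Nat.card ↥(S ⊓ T : Subgroup H) = Nat.card T := by
          rw [← Subgroup.inf_relIndex_right]
          exact hmul _ _ inf_le_right
        have e2 : Nat.card ↥(T ⊔ S) * Nat.card ↥(T ⊓ S) = Nat.card T * Nat.card S :=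
          Lib.Components.card_sup_mul_card_inf_eq (Subgroup.le_normalizer_of_normal)
        have e3 : S.relIndex (T ⊔ S) * Nat.card S = Nat.card ↥(T ⊔ S) := hmul _ _ le_sup_right
        rw [inf_comm] at e1
        have e4 : S.relIndex T = S.relIndex (T ⊔ S) := by
          rw [← e3, ← e1] at e2
          have hpos : 0 < Nat.card ↥(T ⊓ S) * Nat.card S := Nat.mul_pos Nat.card_pos Nat.card_pos
          refine Nat.eq_of_mul_eq_mul_right hpos ?_
          linear_combination -e2
        rw [e4]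
        exact Dvd.intro _ (Subgroup.relIndex_mul_index (le_sup_right : S ≤ T ⊔ S))
      rw [hi] at h2 ⊢
      rcases Nat.eq_zero_or_pos i with rfl | hi0
      · rw [pow_zero]
      · exact absurd ((Nat.prime_dvd_prime_iff_eq ht C.pp).1
          (ht.dvd_of_dvd_pow ((dvd_pow_self t hi0.ne').trans h2))) htne
    exact hfix hxT
  subst htp'
  have hTP : T ≤ (P : Subgroup H) := by
    have h := P.is_maximal' (hTp.to_sup_of_normal_left P.isPGroup') le_sup_right
    exact le_sup_left.trans h.le
  obtain ⟨e, he⟩ := exists_nat_pow (hall x (hTP hxT))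
  set z := η ^ t ^ (n - 1) with hz
  have hzx : x ∈ Subgroup.zpowers z := by
    have h1 : η ^ (e * t) = 1 := by rw [pow_mul, he, ← hxt, pow_orderOf_eq_one]
    rw [← orderOf_dvd_iff_pow_eq_one, D.ord, show t ^ n = t ^ (n - 1) * t by
      rw [← pow_succ]; congr 1; omega] at h1
    obtain ⟨l, hl⟩ := Nat.dvd_of_mul_dvd_mul_right ht.pos h1
    exact ⟨l, by change z ^ (l : ℤ) = x; rw [zpow_natCast, hz, ← pow_mul, ← hl, he]⟩
  have hzord : orderOf z = t := by
    rw [hz, orderOf_pow' η (pow_ne_zero _ ht.ne_zero), D.ord,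
      Nat.gcd_eq_right (pow_dvd_pow t (Nat.sub_le n 1)), Nat.pow_div (Nat.sub_le n 1) ht.pos,
      show n - (n - 1) = 1 by omega, pow_one]
  have hzz : Subgroup.zpowers x = Subgroup.zpowers z :=
    Subgroup.eq_of_le_of_card_ge (Subgroup.zpowers_le.2 hzx) (by rw [Nat.card_zpowers, Nat.card_zpowers, hzord, hxt])
  have hzT : z ∈ T := by
    have : z ∈ Subgroup.zpowers x := hzz ▸ Subgroup.mem_zpowers z
    exact Subgroup.zpowers_le.2 hxT this
  have hTz : ∀ a ∈ T, ∃ l : ℕ, z ^ l = a := by
    intro a ha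
    obtain ⟨i, hi⟩ := exists_nat_pow (hall a (hTP ha))
    have h1 : η ^ (i * t) = 1 := by rw [pow_mul, hi]; exact ha.2
    rw [← orderOf_dvd_iff_pow_eq_one, D.ord, show t ^ n = t ^ (n - 1) * t by
      rw [← pow_succ]; congr 1; omega] at h1
    obtain ⟨l, hl⟩ := Nat.dvd_of_mul_dvd_mul_right ht.pos h1
    exact ⟨l, by rw [hz, ← pow_mul, ← hl, hi]⟩
  let Z : Subgroup H := Subgroup.centralizer ({z} : Set H)
  have hZ : commutator H ≤ Z := by
    rw [commutator_def, Subgroup.commutator_le]
    intro a _ b _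
    obtain ⟨r, hr⟩ := hTz _ (hTn.conj_mem z hzT a)
    obtain ⟨s, hs⟩ := hTz _ (hTn.conj_mem z hzT b)
    have h1 : a * b * z * (a * b)⁻¹ = b * a * z * (b * a)⁻¹ := by
      calc a * b * z * (a * b)⁻¹ = a * (b * z * b⁻¹) * a⁻¹ := by group
        _ = (a * z * a⁻¹) ^ s := by rw [← hs, conj_pow]
        _ = (z ^ r) ^ s := by rw [hr]
        _ = (z ^ s) ^ r := pow_right_comm z r s
        _ = (b * z * b⁻¹) ^ r := by rw [hs]
        _ = b * (a * z * a⁻¹) * b⁻¹ := by rw [← hr, conj_pow]
        _ = _ := by group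
    have h2 : (b * a)⁻¹ * (a * b) ∈ Z := by
      rw [Subgroup.mem_centralizer_singleton_iff, ← mul_inv_eq_iff_eq_mul]
      calc (b * a)⁻¹ * (a * b) * z * ((b * a)⁻¹ * (a * b))⁻¹
          = (b * a)⁻¹ * (a * b * z * (a * b)⁻¹) * (b * a) := by group
        _ = z := by rw [h1]; group
    have hnorm : Z.Normal := by
      constructor
      intro w hw g
      rw [Subgroup.mem_centralizer_singleton_iff] at hw ⊢
      obtain ⟨l, hl⟩ := hTz _ (hTn.conj_mem z hzT g⁻¹)
      rw [inv_inv] at hl
      have hwl : w * (g⁻¹ * z * g) = g⁻¹ * z * g * w := by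
        rw [← hl]; exact (show Commute w z from hw).pow_right l
      calc g * w * g⁻¹ * z = g * (w * (g⁻¹ * z * g)) * g⁻¹ := by group
        _ = g * (g⁻¹ * z * g * w) * g⁻¹ := by rw [hwl]
        _ = z * (g * w * g⁻¹) := by group
    rw [show ⁅a, b⁆ = (b * a) * ((b * a)⁻¹ * (a * b)) * (b * a)⁻¹ by rw [commutatorElement_def]; group]
    exact hnorm.conj_mem _ h2 _
  rw [C.perfect] at hZ
  have hcomm : ∀ (h : H) (x : F) (w : V), h • Φ x w = Φ x (h • w) := by
    intro h
    let R : Subring F :=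
      { carrier := {x | ∀ w : V, h • Φ x w = Φ x (h • w)}
        one_mem' := fun w => by simp
        zero_mem' := fun w => by simp
        mul_mem' := fun {a b} ha hb w => by rw [mulapp, ha, hb, ← mulapp]
        add_mem' := fun {a b} ha hb w => by
          rw [map_add]
          change h • (Φ a w + Φ b w) = Φ a (h • w) + Φ b (h • w)
          rw [smul_add, ha, hb]
        neg_mem' := fun {a} ha w => by
          rw [map_neg]
          change h • (-Φ a w) = -Φ a (h • w)
          rw [smul_neg, ha] }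
    let L : Subfield F := { R with inv_mem' := fun x hx => subring_inv_mem R hx }
    have hzL : u ^ t ^ (n - 1) ∈ L := fun w => by
      rw [D.pow_apply, D.pow_apply, ← mul_smul, ← mul_smul, ← hz]
      rw [Subgroup.mem_centralizer_singleton_iff.1 (hZ (Subgroup.mem_top h))]
    have hle : Subfield.closure ({u ^ t ^ (n - 1)} : Set F) ≤ L :=
      Subfield.closure_le.2 (Set.singleton_subset_iff.2 hzL)
    rw [htop] at hle
    exact fun x => hle (Subfield.mem_top x)
  obtain ⟨v, hv, -, hsp⟩ := D.exists_line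
  refine C.not_solvable (Group.isSolvable_of_comm fun a b => C.act_injective (DFunLike.ext _ _ fun w => ?_))
  obtain ⟨x, rfl⟩ := hsp w
  obtain ⟨ca, hca⟩ := hsp (a • v)
  obtain ⟨cb, hcb⟩ := hsp (b • v)
  rw [act_apply, act_apply, mul_smul, mul_smul, hcomm b, ← hcb, ← mulapp, hcomm a, ← hca,
    hcomm a x, ← hca, ← mulapp, ← mulapp, hcomm b, ← hcb, ← mulapp]
  congr 2; ring

/-- The odd case. -/
theorem odd_false [Finite H] [Finite V] [Finite F] (hp2 : p ≠ 2) : False := by
  classical
  have := Fact.mk C.pp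
  have hall := D.odd_eq hp2
  have hn : 1 ≤ n := by
    by_contra hc
    have h1 : η = 1 := orderOf_eq_one_iff.1 (by rw [D.ord, show n = 0 by omega, pow_zero])
    refine C.sylow_ne_bot P ((Subgroup.eq_bot_iff_forall _).2 fun g hg => ?_)
    have := hall g hg
    rwa [h1, Subgroup.zpowers_one_eq_bot, Subgroup.mem_bot] at this
  have htop : Subfield.closure ({u ^ p ^ (n - 1)} : Set F) = ⊤ := by
    rcases Nat.lt_or_ge n 2 with h | h
    · rw [show n - 1 = 0 by omega, pow_zero, pow_one]; exact D.gen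
    · exact closure_pow_top C.pp u D.orderOf_u (D.closure_pow_eq_top h (fun e => absurd e hp2)) (n - 1)
        (by omega) (fun e => absurd e hp2)
  have hA : (P : Subgroup H) = Subgroup.zpowers η :=
    le_antisymm (fun g hg => hall g hg) (Subgroup.zpowers_le.2 D.mem)
  have hcardP : Nat.card (P : Subgroup H) = p ^ n := by rw [hA, Nat.card_zpowers, D.ord]
  have := C.nontrivial_V
  obtain ⟨v, hv⟩ := exists_ne (0 : V)
  have hfin : (MulAction.orbit H v).Finite := Set.finite_range _
  set O := hfin.toFinset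
  have hO : ∀ x, x ∈ O ↔ x ∈ MulAction.orbit H v := fun x => Set.Finite.mem_toFinset _
  have horbit : ∀ w : V, MulAction.orbit H w = MulAction.orbit ↥(P : Subgroup H) w := by
    intro w
    refine Set.Subset.antisymm ?_ ?_
    · rintro _ ⟨h, rfl⟩
      obtain ⟨g, hg, he⟩ := C.exists_smul_eq P h w
      exact ⟨⟨g, hg⟩, he.symm⟩
    · rintro _ ⟨g, rfl⟩
      exact MulAction.mem_orbit w (g : H)
  have hcardO : O.card = p ^ n := by
    rw [← Set.ncard_eq_toFinset_card _ hfin, horbit, ← MulAction.index_stabilizer]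
    have hbot : MulAction.stabilizer ↥(P : Subgroup H) v = ⊥ := by
      refine (Subgroup.eq_bot_iff_forall _).2 fun g hg => Subtype.ext ?_
      obtain ⟨k, hk⟩ := exists_nat_pow (hall g g.2)
      have h1 : Φ (u ^ k - 1) v = 0 := by
        rw [map_sub, map_one]
        change Φ (u ^ k) v - v = 0
        rw [D.pow_apply, hk, sub_eq_zero]
        exact hg
      have h2 := sub_eq_zero.1 ((D.free h1).resolve_right hv)
      rw [← pow_zero u, D.pow_u_eq_iff] at h2
      rw [← hk]
      have h3 : η ^ k = η ^ 0 := by rw [pow_eq_pow_iff_modEq, D.ord]; exact h2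
      rwa [pow_zero] at h3
    rw [hbot, Subgroup.index_bot, hcardP]
  have hbound : ∀ w : V, (MulAction.orbit H w).ncard ≤ O.card := by
    intro w
    rw [hcardO, ← hcardP, horbit, ← MulAction.index_stabilizer]
    exact Nat.le_of_dvd Nat.card_pos (Subgroup.index_dvd_card _)
  have hqn : ¬ q ∣ O.card := by
    rw [hcardO]
    intro h
    exact C.ne ((Nat.prime_dvd_prime_iff_eq C.qp C.pp).1 (C.qp.dvd_of_dvd_pow h)).symm
  let Ω := ↥(MulAction.orbit H v)
  have : Finite Ω := hfin.to_subtype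
  let f : H →* Equiv.Perm Ω := MulAction.toPermHom H Ω
  have hfapp : ∀ (h : H) (x : Ω), ((f h x : Ω) : V) = h • (x : V) := fun h x => rfl
  have hfi : Function.Injective f := by
    refine (injective_iff_map_eq_one f).2 fun h hh => C.faith h fun w => ?_
    have hfix : ∀ x ∈ MulAction.orbit H v, h • x = x := fun x hx => by
      have := congrArg Subtype.val (congrFun (congrArg (fun e : Equiv.Perm Ω => ⇑e) hh) ⟨x, hx⟩)
      exact this
    let W : AddSubgroup V := AddSubgroup.closure (MulAction.orbit H v)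
    have hWinv : ∀ g : H, ∀ a ∈ W, g • a ∈ W := fun g a ha => by
      have hle : W ≤ W.comap (DistribMulAction.toAddMonoidHom V g) :=
        (AddSubgroup.closure_le _).2 fun b hb => AddSubgroup.subset_closure (MulAction.mem_orbit_of_mem_orbit g hb)
      exact hle ha
    rcases C.irred W hWinv with hb | ht
    · exact absurd (AddSubgroup.mem_bot.1 (hb ▸ AddSubgroup.subset_closure (MulAction.mem_orbit_self v))) hv
    · have hle : W ≤ (DistribMulAction.toAddMonoidHom V h).eqLocus (AddMonoidHom.id V) :=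
        (AddSubgroup.closure_le _).2 fun b hb => hfix b hb
      exact hle (ht ▸ AddSubgroup.mem_top w)
  let G := f.range
  have hsolv : ¬ Group.IsSolvable G := not_solvable_range f hfi C.not_solvable
  have htr : MulAction.IsPretransitive G Ω := ⟨fun a b => by
    obtain ⟨h, hh⟩ := MulAction.exists_smul_eq H a b
    exact ⟨⟨f h, h, rfl⟩, hh⟩⟩
  let _ := Fintype.ofFinite Ω
  have hcΩ : Fintype.card Ω = p ^ n := by
    rw [← Nat.card_eq_fintype_card, ← hcardO, ← Set.ncard_eq_toFinset_card _ hfin]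
    rfl
  by_cases h2 : MulAction.IsMultiplyPretransitive G Ω 2
  · rcases Nat.lt_or_ge 3 (p ^ n) with h4 | h4
    · refine C.two_trans_false v O hO (hcardO ▸ h4) hqn hbound ?_
      intro a b c d ha hb hc hd hab hcd
      rw [MulAction.is_two_pretransitive_iff] at h2
      obtain ⟨⟨_, h, rfl⟩, e1, e2⟩ := @h2
        ⟨a, (hO a).1 ha⟩ ⟨b, (hO b).1 hb⟩ ⟨c, (hO c).1 hc⟩
        ⟨d, (hO d).1 hd⟩ (fun e => hab (congrArg Subtype.val e)) (fun e => hcd (congrArg Subtype.val e))
      exact ⟨h, congrArg Subtype.val e1, congrArg Subtype.val e2⟩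
    · have h3 : p ^ n = 3 := by
        have := Nat.le_self_pow (by omega : n ≠ 0) p
        have h5 := C.pp.two_le
        have h6 : p = 3 := by omega
        subst h6
        omega
      have : Nontrivial Ω := Fintype.one_lt_card_iff_nontrivial.1 (by rw [hcΩ, h3]; omega)
      have hcA : Nat.card (alternatingGroup Ω) = 3 := by
        rw [nat_card_alternatingGroup, Nat.card_eq_fintype_card, hcΩ, h3]; rfl
      have := isCyclic_of_prime_card (hp := ⟨Nat.prime_three⟩) hcA
      let _ : CommGroup (alternatingGroup Ω) := IsCyclic.commGroup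
      have hsign : ∀ h, f h ∈ alternatingGroup Ω := fun h => by
        have hle := Abelianization.commutator_subset_ker (Equiv.Perm.sign.comp f)
        rw [C.perfect] at hle
        exact hle (Subgroup.mem_top h)
      exact C.not_solvable (Group.isSolvable_of_comm fun a b => hfi (by
        rw [map_mul, map_mul]
        exact congrArg Subtype.val (mul_comm (⟨f a, hsign a⟩ : alternatingGroup Ω) ⟨f b, hsign b⟩)))
  rcases Nat.lt_or_ge n 2 with hn2 | hn2
  · rw [show n = 1 by omega, pow_one] at hcΩ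
    rcases S0675.result (hcΩ ▸ C.pp) G with h | h
    · exact hsolv h
    · exact h2 h
  · set g : G := ⟨f η, η, rfl⟩
    have hg : orderOf g = p ^ n := by
      rw [← Subgroup.orderOf_coe]
      exact (orderOf_injective f hfi η).trans D.ord
    obtain ⟨-, hint⟩ := S3972.result p n C.pp hn2 hcΩ G htr h2 g hg
    set N := Subgroup.normalClosure ({g ^ (p ^ (n - 1))} : Set G) with hNdef
    have hNn : N.Normal := Subgroup.normalClosure_normal
    refine D.normal_false hall hn htop (N.comap f.rangeRestrict) (hNn.comap _) ?_ ?_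
    · intro he
      refine hint ⟨fun a b => ?_⟩
      obtain ⟨h, hh⟩ := MulAction.exists_smul_eq H a b
      have : f.rangeRestrict h ∈ N := (he ▸ Subgroup.mem_top h : h ∈ N.comap f.rangeRestrict)
      exact ⟨⟨_, this⟩, hh⟩
    · intro he
      have hm : η ^ p ^ (n - 1) ∈ N.comap f.rangeRestrict := by
        change f.rangeRestrict (η ^ p ^ (n - 1)) ∈ N
        rw [map_pow]
        exact Subgroup.subset_normalClosure rfl
      rw [he, Subgroup.mem_bot, ← orderOf_dvd_iff_pow_eq_one, D.ord,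
        Nat.pow_dvd_pow_iff_le_right C.pp.one_lt] at hm
      omega

end Semi

/-- There is no critical configuration. -/
theorem false' {H V : Type*} [Group H] [Finite H] [AddCommGroup V] [Finite V] [DistribMulAction H V] {q p : ℕ}
    (C : Crit q p H V) : False := by
  classical
  have := Fact.mk C.pp
  obtain ⟨P⟩ : Nonempty (Sylow p H) := inferInstance
  obtain ⟨η, hη, hnorm, hself⟩ := C.exists_maximal P
  obtain ⟨n, hn⟩ : ∃ n, orderOf η = p ^ n := by
    obtain ⟨n, -, hn⟩ := (Nat.dvd_prime_pow C.pp).1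
      ((Subgroup.orderOf_dvd_natCard _ hη).trans (dvd_of_eq P.isPGroup'.exists_card_eq.choose_spec))
    exact ⟨n, hn⟩
  have hA : ∀ a ∈ Subgroup.zpowers η, ∀ b ∈ Subgroup.zpowers η, a * b = b * a := by
    rintro _ ⟨i, rfl⟩ _ ⟨j, rfl⟩
    exact (Commute.refl η).zpow_zpow i j
  have hf := C.ringE_isField P hA (fun g hg a ha => hnorm g hg a ha)
  have : Finite (AddMonoid.End V) := Finite.of_injective _ DFunLike.coe_injective
  let _ := hf.toField
  let E := ↥(ringE V (Subgroup.zpowers η))
  let u : E := ⟨act V η, Subring.subset_closure ⟨η, Subgroup.mem_zpowers η, rfl⟩⟩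
  let σ : ↥(P : Subgroup H) → E →+* E := fun g =>
    { toFun := fun x => ⟨act V (g : H) * x * act V (g : H)⁻¹, conj_mem_ringE (hnorm g g.2) x.2⟩
      map_one' := Subtype.ext (by
        change act V (g : H) * 1 * act V (g : H)⁻¹ = 1
        rw [mul_one, ← map_mul, mul_inv_cancel, map_one])
      map_zero' := Subtype.ext (by
        change act V (g : H) * 0 * act V (g : H)⁻¹ = 0
        rw [mul_zero, zero_mul])
      map_add' := fun a b => Subtype.ext (by
        change act V (g : H) * ((a : AddMonoid.End V) + b) * act V (g : H)⁻¹ =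
          act V (g : H) * a * act V (g : H)⁻¹ + act V (g : H) * b * act V (g : H)⁻¹
        rw [mul_add, add_mul])
      map_mul' := fun a b => Subtype.ext (by
        change act V (g : H) * ((a : AddMonoid.End V) * b) * act V (g : H)⁻¹ =
          act V (g : H) * a * act V (g : H)⁻¹ * (act V (g : H) * b * act V (g : H)⁻¹)
        simp only [mul_assoc]
        rw [← mul_assoc (act V (g : H)⁻¹) (act V (g : H)), ← map_mul, inv_mul_cancel, map_one, one_mul]) }
  have hgen : Subfield.closure ({u} : Set E) = ⊤ := by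
    suffices hsuff : ∀ x : E, x ∈ Subfield.closure ({u} : Set E) from eq_top_iff.2 fun x _ => hsuff x
    rintro ⟨x, hx⟩
    induction hx using Subring.closure_induction with
    | mem x hx =>
      obtain ⟨a, ha, rfl⟩ := hx
      obtain ⟨k, rfl⟩ := exists_nat_pow ha
      have : (⟨act V (η ^ k), Subring.subset_closure ⟨η ^ k, ha, rfl⟩⟩ : E) = u ^ k :=
        Subtype.ext (map_pow (act V) η k)
      exact this ▸ pow_mem (Subfield.subset_closure (Set.mem_singleton u)) k
    | zero => exact (Subfield.closure ({u} : Set E)).zero_mem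
    | one => exact (Subfield.closure ({u} : Set E)).one_mem
    | add a b _ _ ha hb => exact (Subfield.closure ({u} : Set E)).add_mem ha hb
    | neg a _ ha => exact (Subfield.closure ({u} : Set E)).neg_mem ha
    | mul a b _ _ ha hb => exact (Subfield.closure ({u} : Set E)).mul_mem ha hb
  let Φ : E →+* AddMonoid.End V :=
    { toFun := fun x => (x : AddMonoid.End V)
      map_one' := rfl
      map_zero' := rfl
      map_add' := fun _ _ => rfl
      map_mul' := fun _ _ => rfl }
  have D : Semi C P η n Φ u σ := by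
    refine ⟨hη, fun g hg => hnorm g hg η (Subgroup.mem_zpowers η), hself, hn, rfl, hgen, ?_⟩
    intro g x w
    change (g : H) • (x : AddMonoid.End V) w = (g : H) • ((x : AddMonoid.End V) ((g : H)⁻¹ • (g : H) • w))
    rw [inv_smul_smul]
  by_cases hp2 : p = 2
  · exact D.two_false hp2
  · exact D.odd_false hp2

end Crit

end Cfsg.Agent.Lib.QBaer
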