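import Mathlib

/-!
A perfect group and a `p`-group acting on a finite set, every orbit of the perfect group on subsets lying
in an orbit of the `p`-group: the perfect group acts trivially.
-/

open Pointwise
open scoped commutatorElement

namespace Cfsg.Agent.Lib.QBaer

variable {H P ι : Type*} [Group H] [Group P] [Finite ι] [MulAction H ι] [MulAction P ι]

/-- A subgroup containing the stabiliser, of index `p`. -/
theorem exists_normal_index_prime {P : Type*} [Group P] [Finite P] {p : ℕ} [hp : Fact p.Prime]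
    (hP : IsPGroup p P) (S : Subgroup P) (hS : S ≠ ⊤) :
    ∃ M : Subgroup P, M.Normal ∧ S ≤ M ∧ M.index = p := by
  obtain ⟨e, he⟩ := hP.exists_card_eq
  obtain ⟨s, hs⟩ := (hP.to_subgroup S).exists_card_eq
  have hse : s < e := by
    rcases lt_or_ge s e with h | h
    · exact h
    exfalso
    refine hS (S.eq_top_of_card_eq ?_)
    rw [hs, he]
    refine le_antisymm ?_ (Nat.pow_le_pow_right hp.out.pos h)
    rw [← hs, ← he]
    exact Subgroup.card_le_card_group S
  have hd : p ^ (e - 1) ∣ Nat.card P := he ▸ pow_dvd_pow p (by omega)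
  obtain ⟨M, hM, hSM⟩ := Sylow.exists_subgroup_card_pow_prime_le p hd S hs (by omega)
  have hi : M.index = p := by
    have h1 := M.card_mul_index
    rw [hM, he] at h1
    have h2 : p ^ e = p ^ (e - 1) * p := by
      rw [← pow_succ, show e - 1 + 1 = e by omega]
    rw [h2] at h1
    exact Nat.eq_of_mul_eq_mul_left (pow_pos hp.out.pos _) h1
  refine ⟨M, Subgroup.normal_of_index_eq_minFac_card ?_, hSM, hi⟩
  rw [hi, he, Nat.Prime.pow_minFac hp.out (by omega)]

/-- A perfect group of maps `q ↦ c * q ^ (±1)` of an abelian group is trivial. -/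
theorem affine_trivial {H Qt : Type*} [Group H] [CommGroup Qt] (σ : H → Qt → Qt)
    (h1 : ∀ x, σ 1 x = x) (hm : ∀ a b x, σ (a * b) x = σ a (σ b x))
    (hH : commutator H = ⊤)
    (haff : ∀ h, (∀ x, σ h x = σ h 1 * x) ∨ (∀ x, σ h x = σ h 1 * x⁻¹)) :
    ∀ h x, σ h x = x := by
  classical
  let e : H → ℤ := fun h => if ∀ x, σ h x = σ h 1 * x then 1 else -1
  have he : ∀ h x, σ h x = σ h 1 * x ^ e h := by
    intro h x
    simp only [e]
    split_ifs with hh
    · rw [zpow_one]; exact hh x
    · rw [zpow_neg_one]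
      rcases haff h with h' | h'
      · exact absurd h' hh
      · exact h' x
  have hinv : ∀ h x, σ h⁻¹ x = (σ h 1)⁻¹ ^ e h * x ^ e h := by
    intro h x
    have hee : e h * e h = 1 := by simp only [e]; split_ifs <;> rfl
    have hl : σ h (((σ h 1)⁻¹) ^ e h * x ^ e h) = x := by
      rw [he h, mul_zpow, ← zpow_mul, ← zpow_mul, hee, zpow_one, zpow_one]
      group
    conv_lhs => rw [← hl]
    rw [← hm, inv_mul_cancel, h1]
  let S : Subgroup H :=
    { carrier := {h | ∀ x, σ h x = σ h 1 * x}
      one_mem' := fun x => by rw [h1, h1, one_mul]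
      mul_mem' := fun {a b} ha hb x => by
        rw [hm, hb x, ha, hm a b 1, ha (σ b 1), mul_assoc]
      inv_mem' := fun {a} ha x => by
        have : e a = 1 := if_pos ha
        rw [hinv, hinv a 1, this]
        simp }
  have hS : commutator H ≤ S := by
    rw [commutator_def, Subgroup.commutator_le]
    intro a _ b _ x
    have hee : ∀ h, e h * e h = 1 := fun h => by simp only [e]; split_ifs <;> rfl
    have ha := hee a
    have hb := hee b
    have key : ∀ y, σ ⁅a, b⁆ y =
        σ a 1 * (σ b 1) ^ e a * ((σ a 1)⁻¹ ^ e a) ^ (e a * e b) * ((σ b 1)⁻¹ ^ e b) ^ (e a * e b * e a)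
          * y := by
      intro y
      rw [commutatorElement_def, hm, hm, hm, hinv b, hinv a, he b, he a]
      simp only [mul_zpow, ← zpow_mul, ← mul_assoc]
      have hy : e b * e a * e b * e a = 1 := by linear_combination (e b * e b) * ha + hb
      rw [hy, zpow_one y]
      rw [mul_right_comm (e a) (e b) (e a)]
    rw [key x, key 1, mul_one]
  rw [hH] at hS
  have hall : ∀ h x, σ h x = σ h 1 * x := fun h => hS (Subgroup.mem_top h)
  let T : Subgroup H :=
    { carrier := {h | ∀ x, σ h x = x}
      one_mem' := h1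
      mul_mem' := fun {a b} ha hb x => by rw [hm, hb, ha]
      inv_mem' := fun {a} ha x => by
        conv_lhs => rw [← ha x]
        rw [← hm, inv_mul_cancel, h1] }
  have hT : commutator H ≤ T := by
    rw [commutator_def, Subgroup.commutator_le]
    intro a _ b _ x
    have hc : ∀ y, σ (a * b) y = σ (b * a) y := fun y => by
      rw [hm, hm, hall a, hall b y, hall b (σ a y), hall a y, mul_left_comm]
    have : a * b * a⁻¹ * b⁻¹ = (a * b) * (b * a)⁻¹ := by group
    rw [commutatorElement_def, this, hm, hc, ← hm, mul_inv_cancel, h1]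
  rw [hH] at hT
  exact fun h => hT (Subgroup.mem_top h)

/-- Induction statement for `perm_trivial`. -/
theorem perm_aux [Finite P] {p : ℕ} [hp : Fact p.Prime] (hP : IsPGroup p P) (hH : commutator H = ⊤) :
    ∀ (n : ℕ) (T : Set ι) (P' : Subgroup P), T.ncard ≤ n → (∀ g ∈ P', ∀ t ∈ T, g • t ∈ T) →
      (∀ S ⊆ T, ∀ h : H, ∃ g ∈ P', h • S = g • S) → ∀ h : H, ∀ i ∈ T, h • i = i := by
  intro n
  induction n with
  | zero =>
    intro T P' hn _ _ h i hi
    have := (Set.ncard_pos T.toFinite).2 ⟨i, hi⟩
    omega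
  | succ n ih =>
    intro T P' hn hT hsub h i hi
    have hsingle : ∀ (h : H), ∀ t ∈ T, ∃ g ∈ P', h • t = g • t := by
      intro h t ht
      obtain ⟨g, hg, he⟩ := hsub {t} (Set.singleton_subset_iff.2 ht) h
      rw [Set.smul_set_singleton, Set.smul_set_singleton, Set.singleton_eq_singleton_iff] at he
      exact ⟨g, hg, he⟩
    let O : Set ι := (fun g : P => g • i) '' (P' : Set P)
    have hOT : O ⊆ T := by rintro _ ⟨g, hg, rfl⟩; exact hT g hg i hi
    have hiO : i ∈ O := ⟨1, one_mem _, one_smul P i⟩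
    rcases hOT.eq_or_ssubset with hO | hO
    swap
    · refine ih O P' (by have := Set.ncard_lt_ncard hO T.toFinite; omega) ?_
        (fun S hS => hsub S (hS.trans hOT)) h i hiO
      rintro g hg _ ⟨g', hg', rfl⟩
      exact ⟨g * g', mul_mem hg hg', mul_smul g g' i⟩
    let St : Subgroup ↥P' := MulAction.stabilizer ↥P' i
    by_cases hSt : St = ⊤
    · obtain ⟨g, hg, he⟩ := hsingle h i hi
      rw [he]
      have : (⟨g, hg⟩ : ↥P') ∈ St := hSt ▸ Subgroup.mem_top _
      exact this
    obtain ⟨M, hMn, hStM, hMi⟩ := exists_normal_index_prime (hP.to_subgroup P') St hSt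
    have hcard : Nat.card (↥P' ⧸ M) = p := hMi
    have : IsCyclic (↥P' ⧸ M) := isCyclic_of_prime_card hcard
    letI : CommGroup (↥P' ⧸ M) := IsCyclic.commGroup
    let F : ↥P' ⧸ M → Set ι := fun x => {t | ∃ g : ↥P', g • i = t ∧ (g : ↥P' ⧸ M) = x}
    have hFne : ∀ x, (F x).Nonempty := fun x => by
      obtain ⟨g, rfl⟩ := QuotientGroup.mk_surjective x
      exact ⟨_, g, rfl, rfl⟩
    have hFT : ∀ x, F x ⊆ T := by rintro x _ ⟨g, rfl, -⟩; exact hT _ g.2 i hi
    have hFd : ∀ x y t, t ∈ F x → t ∈ F y → x = y := by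
      rintro x y _ ⟨g, rfl, rfl⟩ ⟨g', he, rfl⟩
      refine QuotientGroup.eq.2 (hStM ?_)
      rw [MulAction.mem_stabilizer_iff, mul_smul, he, inv_smul_smul]
    have hFinj : ∀ x y, F x = F y → x = y := fun x y e => by
      obtain ⟨t, ht⟩ := hFne x
      exact hFd x y t ht (e ▸ ht)
    have hFmove : ∀ (g : ↥P') x, (g : P) • F x = F ((g : ↥P' ⧸ M) * x) := by
      intro g x
      ext t
      constructor
      · rintro ⟨_, ⟨g', rfl, rfl⟩, rfl⟩
        exact ⟨g * g', mul_smul g g' i, QuotientGroup.mk_mul M g g'⟩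
      · rintro ⟨g', rfl, hg'⟩
        refine ⟨(g⁻¹ * g') • i, ⟨g⁻¹ * g', rfl, ?_⟩, ?_⟩
        · rw [QuotientGroup.mk_mul, QuotientGroup.mk_inv, hg', inv_mul_cancel_left]
        · change g • (g⁻¹ * g') • i = g' • i
          rw [smul_smul, mul_inv_cancel_left]
    have hex : ∀ (h : H) x, ∃ y, h • F x = F y := fun h x => by
      obtain ⟨g, hg, he⟩ := hsub (F x) (hFT x) h
      exact ⟨_, he.trans (hFmove ⟨g, hg⟩ x)⟩
    choose σ hσ using hex
    have hσ1 : ∀ x, σ 1 x = x := fun x => hFinj _ _ (by rw [← hσ, one_smul])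
    have hσm : ∀ a b x, σ (a * b) x = σ a (σ b x) := fun a b x =>
      hFinj _ _ (by rw [← hσ, ← hσ, mul_smul, hσ b x])
    have hpair : ∀ h x y, ∃ c, (σ h x = c * x ∨ σ h x = c * y) ∧ (σ h y = c * x ∨ σ h y = c * y) := by
      intro h x y
      obtain ⟨g, hg, he⟩ := hsub (F x ∪ F y) (Set.union_subset (hFT x) (hFT y)) h
      have hF : ∀ z, (g : P) • F z = F (((⟨g, hg⟩ : ↥P') : ↥P' ⧸ M) * z) := hFmove ⟨g, hg⟩
      rw [Set.smul_set_union, Set.smul_set_union, hσ, hσ, hF, hF] at he
      refine ⟨((⟨g, hg⟩ : ↥P') : ↥P' ⧸ M), ?_, ?_⟩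
      · obtain ⟨t, ht⟩ := hFne (σ h x)
        exact ((Set.ext_iff.1 he t).1 (Or.inl ht)).imp (hFd _ _ t ht) (hFd _ _ t ht)
      · obtain ⟨t, ht⟩ := hFne (σ h y)
        exact ((Set.ext_iff.1 he t).1 (Or.inr ht)).imp (hFd _ _ t ht) (hFd _ _ t ht)
    obtain ⟨a, ha⟩ := IsCyclic.exists_generator (α := ↥P' ⧸ M)
    have ha1 : a ≠ 1 := by
      rintro rfl
      have : ∀ x : ↥P' ⧸ M, x = 1 := fun x => by simpa [Subgroup.zpowers_one_eq_bot] using ha x
      have : Subsingleton (↥P' ⧸ M) := ⟨fun x y => by rw [this x, this y]⟩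
      rw [Nat.card_unique] at hcard
      exact hp.out.one_lt.ne' hcard.symm
    have hstep : ∀ h x, σ h (x * a) = σ h x * a ∨ σ h (x * a) = σ h x * a⁻¹ := by
      intro h x
      have hne : σ h (x * a) ≠ σ h x := fun e => by
        have := congrArg (σ h⁻¹) e
        rw [← hσm, ← hσm, inv_mul_cancel, hσ1, hσ1] at this
        exact ha1 (by simpa using this)
      obtain ⟨c, hx, hy⟩ := hpair h x (x * a)
      rcases hx with hx | hx <;> rcases hy with hy | hy
      · exact absurd (hy.trans hx.symm) hne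
      · left; rw [hy, hx, mul_assoc]
      · right; rw [hy, hx]; group
      · exact absurd (hy.trans hx.symm) hne
    have haff : ∀ h, (∀ x, σ h x = σ h 1 * x) ∨ (∀ x, σ h x = σ h 1 * x⁻¹) := by
      intro h
      have hpow : ∀ x, ∃ k : ℕ, x = a ^ k := fun x => by
        obtain ⟨k, hk⟩ := mem_powers_iff_mem_zpowers.2 (ha x)
        exact ⟨k, hk.symm⟩
      have : ∀ d, σ h a = σ h 1 * d → (d = a ∨ d = a⁻¹) →
          ∀ k : ℕ, σ h (a ^ k) = σ h 1 * d ^ k := by
        intro d hd0 hd k
        induction k using Nat.strong_induction_on with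
        | _ k ihk =>
          match k, ihk with
          | 0, _ => simp
          | 1, _ => simpa using hd0
          | k + 2, ihk =>
            have e0 := ihk k (by omega)
            have e1 := ihk (k + 1) (by omega)
            have hs := hstep h (a ^ (k + 1))
            rw [← pow_succ, e1] at hs
            have hgoal : ∀ d' , (d' = a ∨ d' = a⁻¹) → σ h (a ^ (k + 2)) = σ h 1 * d ^ (k + 1) * d' →
                σ h (a ^ (k + 2)) = σ h 1 * d ^ (k + 2) := by
              intro d' hd' he
              by_cases hdd : d' = d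
              · rw [he, hdd, mul_assoc, ← pow_succ]
              · have hinv : d' = d⁻¹ := by
                  rcases hd with rfl | rfl <;> rcases hd' with rfl | rfl <;> simp_all
                have : σ h (a ^ (k + 2)) = σ h (a ^ k) := by
                  rw [he, e0, hinv, pow_succ]; group
                have := congrArg (σ h⁻¹) this
                rw [← hσm, ← hσm, inv_mul_cancel, hσ1, hσ1] at this
                have haa : a * a = 1 := by
                  rw [pow_add, pow_two] at this
                  simpa using this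
                have hinva : a⁻¹ = a := inv_eq_of_mul_eq_one_right haa
                exfalso
                apply hdd
                rcases hd with rfl | rfl <;> rcases hd' with rfl | rfl
                · rfl
                · exact hinva
                · exact hinva.symm
                · rfl
            rcases hs with hs | hs
            · exact hgoal a (Or.inl rfl) hs
            · exact hgoal a⁻¹ (Or.inr rfl) hs
      rcases hstep h 1 with hd | hd <;> rw [one_mul] at hd
      · left; intro x; obtain ⟨k, rfl⟩ := hpow x; exact this a hd (Or.inl rfl) k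
      · right; intro x; obtain ⟨k, rfl⟩ := hpow x
        rw [this a⁻¹ hd (Or.inr rfl) k, inv_pow]
    have htriv := affine_trivial σ hσ1 hσm hH haff
    have hB : ∀ h : H, h • F 1 = F 1 := fun h => by rw [hσ, htriv]
    have hiB : i ∈ F 1 := ⟨1, one_smul _ i, rfl⟩
    refine ih (F 1) (M.map P'.subtype) ?_ ?_ ?_ h i hiB
    · have hlt : F 1 ⊂ T := by
        refine (hFT 1).ssubset_of_ne fun e => ?_
        obtain ⟨t, ht⟩ := hFne a
        exact ha1 (hFd _ _ t ht (e ▸ hFT a ht))
      have := Set.ncard_lt_ncard hlt T.toFinite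
      omega
    · rintro _ ⟨g, hg, rfl⟩ t ht
      have h2 := hFmove g 1
      rw [(QuotientGroup.eq_one_iff g).2 hg, one_mul] at h2
      exact h2 ▸ Set.smul_mem_smul_set ht
    · intro S hS h
      rcases S.eq_empty_or_nonempty with rfl | ⟨s, hs⟩
      · exact ⟨1, one_mem _, by simp⟩
      obtain ⟨g, hg, he⟩ := hsub S (hS.trans (hFT 1)) h
      refine ⟨g, ⟨⟨g, hg⟩, ?_, rfl⟩, he⟩
      have h1 : g • s ∈ F 1 := by
        have : g • s ∈ h • S := he ▸ Set.smul_mem_smul_set hs
        exact hB h ▸ Set.smul_set_mono hS this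
      have h2 : g • s ∈ F ((⟨g, hg⟩ : ↥P') : ↥P' ⧸ M) := by
        have := Set.smul_mem_smul_set (a := g) (hS hs)
        rw [hFmove ⟨g, hg⟩ 1, mul_one] at this
        exact this
      exact (QuotientGroup.eq_one_iff _).1 (hFd _ _ _ h2 h1)

/-- If a perfect group and a `p`-group act on a finite set so that every orbit of the perfect group on
subsets lies in an orbit of the `p`-group, then the perfect group acts trivially. -/
theorem perm_trivial [Finite P] {p : ℕ} [Fact p.Prime] (hP : IsPGroup p P) (hH : commutator H = ⊤)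
    (hsub : ∀ (S : Set ι) (h : H), ∃ g : P, h • S = g • S) (h : H) (i : ι) : h • i = i := by
  refine perm_aux hP hH _ Set.univ ⊤ le_rfl (fun _ _ _ _ => trivial) (fun S _ h => ?_) h i trivial
  obtain ⟨g, hg⟩ := hsub S h
  exact ⟨g, Subgroup.mem_top g, hg⟩

end Cfsg.Agent.Lib.QBaer
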