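import Cfsg.Agent.Lib.QBaer.Final

/-!
A linear group of order prime to the characteristic, all of whose orbits have `p`-power length, is solvable.
-/

universe u

namespace Cfsg.Agent.Lib.QBaer

/-- The index of the stabiliser in a normal subgroup divides the index of the stabiliser. -/
theorem relIndex_dvd_index {H : Type*} [Group H] [Finite H] (S N : Subgroup H) [N.Normal] :
    S.relIndex N ∣ S.index := by
  have hmul : ∀ A B : Subgroup H, A ≤ B → A.relIndex B * Nat.card A = Nat.card B := fun A B hAB => by
    rw [← Subgroup.relIndex_bot_left A, ← Subgroup.relIndex_bot_left B, mul_comm,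
      Subgroup.relIndex_mul_relIndex _ _ _ bot_le hAB]
  have e1 : S.relIndex N * Nat.card ↥(N ⊓ S : Subgroup H) = Nat.card N := by
    rw [inf_comm, ← Subgroup.inf_relIndex_right]
    exact hmul _ _ inf_le_right
  have e2 : Nat.card ↥(N ⊔ S) * Nat.card ↥(N ⊓ S) = Nat.card N * Nat.card S :=
    Lib.Components.card_sup_mul_card_inf_eq Subgroup.le_normalizer_of_normal
  have e3 : S.relIndex (N ⊔ S) * Nat.card S = Nat.card ↥(N ⊔ S) := hmul _ _ le_sup_right
  have e4 : S.relIndex N = S.relIndex (N ⊔ S) := by
    rw [← e3, ← e1] at e2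
    refine Nat.eq_of_mul_eq_mul_right (Nat.mul_pos (Nat.card_pos (α := ↥(N ⊓ S))) (Nat.card_pos (α := S))) ?_
    linear_combination -e2
  rw [e4]
  exact Dvd.intro _ (Subgroup.relIndex_mul_index (le_sup_right : S ≤ N ⊔ S))

/-- Group elements of order prime to `q` acting unipotently are trivial. -/
theorem smul_eq_of_unipotent {H V : Type*} [Group H] [Finite H] [AddCommGroup V] [DistribMulAction H V] {q : ℕ}
    (hq : q.Prime) (hH : ¬ q ∣ Nat.card H) (hV : ∀ v : V, q • v = 0) (h : H) (v : V)
    (hd : h • (h • v - v) = h • v - v) : h • v = v := by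
  set d := h • v - v with hdd
  have hiter : ∀ m : ℕ, h ^ m • v = v + m • d := by
    intro m
    induction m with
    | zero => simp
    | succ m ih =>
      rw [pow_succ', mul_smul, ih, smul_add, ← smul_comm m h d, hd, succ_nsmul', ← add_assoc, hdd, add_sub_cancel]
  have h1 := hiter (orderOf h)
  rw [pow_orderOf_eq_one, one_smul, left_eq_add] at h1
  have hcop : Nat.Coprime q (orderOf h) :=
    hq.coprime_iff_not_dvd.2 fun hd => hH (hd.trans (orderOf_dvd_natCard h))
  have h2 : addOrderOf d ∣ Nat.gcd q (orderOf h) :=
    Nat.dvd_gcd (addOrderOf_dvd_of_nsmul_eq_zero (hV d)) (addOrderOf_dvd_of_nsmul_eq_zero h1)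
  rw [hcop.gcd_eq_one, Nat.dvd_one, AddMonoid.addOrderOf_eq_one_iff, hdd, sub_eq_zero] at h2
  exact h2

/-- A perfect group acts trivially on a module for which the theorem is known. -/
theorem trivial_of_known {H : Type u} [Group H] [Finite H] (hH : commutator H = ⊤) {q p : ℕ}
    (hqH : ¬ q ∣ Nat.card H) (X : Type u) [AddCommGroup X] [Finite X] [DistribMulAction H X]
    (hX : ∀ x : X, ∃ a, (MulAction.stabilizer H x).index = p ^ a)
    (known : ∀ (R : Type u) [Group R] [Finite R] [DistribMulAction R X], Nat.card R ≤ Nat.card H →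
      ¬ q ∣ Nat.card R → (∀ r : R, (∀ x : X, r • x = x) → r = 1) →
      (∀ x : X, ∃ a, (MulAction.stabilizer R x).index = p ^ a) → Group.IsSolvable R)
    (h : H) (x : X) : h • x = x := by
  let f : H →* Equiv.Perm X := MulAction.toPermHom H X
  have hmem : ∀ r : f.range, ∃ g : H, f g = r := fun r => r.2
  have happ : ∀ (g : H) (y : X), f g y = g • y := fun g y => rfl
  let instR : DistribMulAction f.range X :=
    { smul := fun r y => (r : Equiv.Perm X) y
      one_smul := fun y => rfl
      mul_smul := fun r s y => rfl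
      smul_zero := fun r => by
        obtain ⟨g, hg⟩ := hmem r
        change (r : Equiv.Perm X) 0 = 0
        rw [← hg, happ, smul_zero]
      smul_add := fun r a b => by
        obtain ⟨g, hg⟩ := hmem r
        change (r : Equiv.Perm X) (a + b) = (r : Equiv.Perm X) a + (r : Equiv.Perm X) b
        rw [← hg, happ, happ, happ, smul_add] }
  have hcard : Nat.card f.range ∣ Nat.card H := by
    rw [← Subgroup.index_ker]; exact Subgroup.index_dvd_card _
  have horb : ∀ y : X, ∃ a, (MulAction.stabilizer f.range y).index = p ^ a := by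
    intro y
    obtain ⟨a, ha⟩ := hX y
    refine ⟨a, ?_⟩
    rw [MulAction.index_stabilizer, ← ha, MulAction.index_stabilizer]
    congr 1
    ext z
    constructor
    · rintro ⟨r, rfl⟩
      obtain ⟨g, hg⟩ := hmem r
      exact ⟨g, by change g • y = (r : Equiv.Perm X) y; rw [← hg, happ]⟩
    · rintro ⟨g, rfl⟩
      exact ⟨⟨f g, g, rfl⟩, rfl⟩
  have hs := known f.range (Nat.le_of_dvd Nat.card_pos hcard) (fun hd => hqH (hd.trans hcard))
    (fun r hr => Subtype.ext (Equiv.ext hr)) horb
  obtain ⟨k, hk⟩ := (Group.isSolvable_def _).1 hs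
  have htop : derivedSeries H k = ⊤ := by
    clear hk
    induction k with
    | zero => exact derivedSeries_zero H
    | succ k ih => rw [derivedSeries_succ, ih, ← commutator_def, hH]
  have h1 := map_derivedSeries_eq (f := f.rangeRestrict) f.rangeRestrict_surjective k
  rw [hk, htop] at h1
  have h2 : f.rangeRestrict h = 1 := by
    rw [← Subgroup.mem_bot, ← h1]
    exact Subgroup.mem_map_of_mem _ (Subgroup.mem_top h)
  have := congrArg (fun r : f.range => (r : Equiv.Perm X) x) h2
  simpa [happ] using this

/-- Induction statement for `solvable_of_orbits`. -/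
theorem solvable_aux : ∀ (n : ℕ) (H : Type u) (V : Type u) [Group H] [Finite H] [AddCommGroup V] [Finite V]
    [DistribMulAction H V] (q p : ℕ), Nat.card H + Nat.card V ≤ n → q.Prime → p.Prime → p ≠ q →
    ¬ q ∣ Nat.card H → (∀ v : V, q • v = 0) → (∀ v : V, ∃ a, (MulAction.stabilizer H v).index = p ^ a) →
    (∀ h : H, (∀ v : V, h • v = v) → h = 1) → Group.IsSolvable H := by
  intro n
  induction n using Nat.strong_induction_on with
  | _ n ih => ?_
  intro H V _ _ _ _ _ q p hn hq hp hpq hH hV horb hfaith
  by_contra hns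
  have hnormal : ∀ N : Subgroup H, N.Normal → N ≠ ⊤ → Group.IsSolvable N := by
    intro N hN hNt
    have hlt : Nat.card N < Nat.card H := by
      rcases lt_or_eq_of_le (Subgroup.card_le_card_group N) with h | h
      · exact h
      · exact absurd (N.eq_top_of_card_eq h) hNt
    refine ih (Nat.card N + Nat.card V) (by omega) N V q p le_rfl hq hp hpq
      (fun hd => hH (hd.trans N.card_subgroup_dvd_card)) hV (fun w => ?_)
      (fun h hh => Subtype.ext (hfaith h hh))
    obtain ⟨a, ha⟩ := horb w
    have hd : (MulAction.stabilizer H w).relIndex N ∣ p ^ a := ha ▸ relIndex_dvd_index _ N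
    obtain ⟨b, -, hb⟩ := (Nat.dvd_prime_pow hp).1 hd
    exact ⟨b, hb⟩
  have hperf : commutator H = ⊤ := by
    by_contra hne
    have := hnormal _ inferInstance hne
    have hA : Group.IsSolvable (Abelianization H) := Group.isSolvable_of_comm fun a b => mul_comm a b
    exact hns (Group.isSolvable_of_ker_le_range (commutator H).subtype (Abelianization.of (G := H))
      (by rw [Subgroup.range_subtype, Abelianization.ker_of]))
  have hnt : Nontrivial H := by
    by_contra h
    rw [not_nontrivial_iff_subsingleton] at h
    exact hns (Group.isSolvable_of_comm fun a b => Subsingleton.elim _ _)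
  have hirr : ∀ W : AddSubgroup V, (∀ h : H, ∀ w ∈ W, h • w ∈ W) → W = ⊥ ∨ W = ⊤ := by
    intro W hW
    by_contra hc
    push Not at hc
    let instW : DistribMulAction H W :=
      { smul := fun h w => ⟨h • (w : V), hW h w w.2⟩
        one_smul := fun w => Subtype.ext (one_smul H (w : V))
        mul_smul := fun a b w => Subtype.ext (mul_smul a b (w : V))
        smul_zero := fun a => Subtype.ext (smul_zero a)
        smul_add := fun a x y => Subtype.ext (smul_add a (x : V) y) }
    have hWlt : Nat.card W < Nat.card V := by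
      rcases lt_or_eq_of_le (AddSubgroup.card_le_card_addGroup W) with h | h
      · exact h
      · exact absurd (AddSubgroup.eq_top_of_card_eq W h) hc.2
    have hW1 : ∀ (h : H) (w : W), h • w = w := by
      refine trivial_of_known hperf hH W (fun w => ?_) fun R _ _ _ hR hqR hf ho =>
        ih (Nat.card R + Nat.card W) (by omega) R W q p le_rfl hq hp hpq hqR
          (fun w => Subtype.ext (hV w)) ho hf
      obtain ⟨a, ha⟩ := horb w
      exact ⟨a, by rw [← ha]; congr 1; ext h; exact Subtype.ext_iff⟩
    have hquot : ∀ h : H, W ≤ W.comap (DistribMulAction.toAddMonoidHom V h) := fun h w hw => hW h w hw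
    let instQ : DistribMulAction H (V ⧸ W) :=
      { smul := fun h x => QuotientAddGroup.map W W (DistribMulAction.toAddMonoidHom V h) (hquot h) x
        one_smul := fun x => by
          obtain ⟨y, rfl⟩ := QuotientAddGroup.mk_surjective x
          exact congrArg (fun z : V => (z : V ⧸ W)) (one_smul H y)
        mul_smul := fun a b x => by
          obtain ⟨y, rfl⟩ := QuotientAddGroup.mk_surjective x
          exact congrArg (fun z : V => (z : V ⧸ W)) (mul_smul a b y)
        smul_zero := fun a => map_zero (QuotientAddGroup.map W W (DistribMulAction.toAddMonoidHom V a) (hquot a))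
        smul_add := fun a => map_add (QuotientAddGroup.map W W (DistribMulAction.toAddMonoidHom V a) (hquot a)) }
    have hQlt : Nat.card (V ⧸ W) < Nat.card V := by
      have h1 := W.card_eq_card_quotient_mul_card_addSubgroup
      have h2 : 1 < Nat.card W := by
        have : Nontrivial W := (AddSubgroup.nontrivial_iff_ne_bot W).2 hc.1
        exact Finite.one_lt_card
      rw [h1]
      exact lt_mul_of_one_lt_right Nat.card_pos h2
    have hQ1 : ∀ (h : H) (x : V ⧸ W), h • x = x := by
      refine trivial_of_known hperf hH (V ⧸ W) (fun x => ?_) fun R _ _ _ hR hqR hf ho =>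
        ih (Nat.card R + Nat.card (V ⧸ W)) (by omega) R (V ⧸ W) q p le_rfl hq hp hpq hqR
          (fun x => by
            obtain ⟨y, rfl⟩ := QuotientAddGroup.mk_surjective x
            rw [← QuotientAddGroup.mk_nsmul, hV]; rfl) ho hf
      obtain ⟨y, rfl⟩ := QuotientAddGroup.mk_surjective x
      obtain ⟨a, ha⟩ := horb y
      have hle : MulAction.stabilizer H y ≤ MulAction.stabilizer H (y : V ⧸ W) := fun h hh =>
        congrArg (fun z : V => (z : V ⧸ W)) hh
      have hd := Subgroup.index_dvd_of_le hle
      rw [ha] at hd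
      obtain ⟨b, -, hb⟩ := (Nat.dvd_prime_pow hp).1 hd
      exact ⟨b, hb⟩
    obtain ⟨h, hh⟩ := exists_ne (1 : H)
    refine hh (hfaith h fun w => smul_eq_of_unipotent hq hH hV h w ?_)
    have hm : h • w - w ∈ W := (QuotientAddGroup.eq_iff_sub_mem).1 (hQ1 h (w : V ⧸ W))
    exact congrArg Subtype.val (hW1 h ⟨_, hm⟩)
  exact Crit.false' (C := ⟨hp, hq, hpq, hH, hV, horb, hperf, hnt, hfaith, hirr, hnormal⟩)

/-- A finite group of order prime to `q`, acting faithfully on a finite abelian group of exponent `q` with
all orbits of `p`-power length, `p ≠ q`, is solvable. -/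
theorem solvable_of_orbits {H : Type u} {V : Type u} [Group H] [Finite H] [AddCommGroup V] [Finite V]
    [DistribMulAction H V] {q p : ℕ} (hq : q.Prime) (hp : p.Prime) (hpq : p ≠ q) (hH : ¬ q ∣ Nat.card H)
    (hV : ∀ v : V, q • v = 0) (horb : ∀ v : V, ∃ a, (MulAction.stabilizer H v).index = p ^ a)
    (hfaith : ∀ h : H, (∀ v : V, h • v = v) → h = 1) : Group.IsSolvable H :=
  solvable_aux _ H V q p le_rfl hq hp hpq hH hV horb hfaith

end Cfsg.Agent.Lib.QBaer
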