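import Cfsg.Agent.Lib.QBaer.Crit

/-!
The doubly transitive case and the case of a plane.
-/

namespace Cfsg.Agent.Lib.QBaer

namespace Crit

variable {H V : Type*} [Group H] [AddCommGroup V] [DistribMulAction H V] {q p : ℕ}
variable (C : Crit q p H V)
include C

/-- No doubly transitive orbit. -/
theorem two_trans_false [Finite H] (v : V) (O : Finset V) (hO : ∀ x, x ∈ O ↔ x ∈ MulAction.orbit H v)
    (hn : 3 < O.card) (hq : ¬ q ∣ O.card)
    (hbound : ∀ w : V, (MulAction.orbit H w).ncard ≤ O.card)
    (h2 : ∀ a b c d, a ∈ O → b ∈ O → c ∈ O → d ∈ O → a ≠ b → c ≠ d → ∃ h : H, h • a = c ∧ h • b = d) :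
    False := by
  classical
  have := Fintype.ofFinite H
  have hmove : ∀ (h : H), ∀ x ∈ O, h • x ∈ O := fun h x hx =>
    (hO _).2 (MulAction.mem_orbit_of_mem_orbit h ((hO x).1 hx))
  have hfix0 : ∀ w : V, (∀ h : H, h • w = w) → w = 0 := by
    intro w hw
    let W : AddSubgroup V :=
      { carrier := {x | ∀ h : H, h • x = x}
        zero_mem' := fun h => smul_zero h
        add_mem' := fun {a b} ha hb h => by rw [smul_add, ha h, hb h]
        neg_mem' := fun {a} ha h => by rw [smul_neg, ha h] }
    rcases C.irred W (fun h x hx g => by rw [hx h, hx g]) with hb | ht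
    · exact AddSubgroup.mem_bot.1 (hb ▸ (hw : w ∈ W))
    · exfalso
      have := C.nontriv
      obtain ⟨a, ha⟩ := exists_ne (1 : H)
      exact ha (C.faith a fun x => (ht ▸ AddSubgroup.mem_top x : x ∈ W) a)
  have hsum : ∑ x ∈ O, x = 0 := hfix0 _ fun h => by
    rw [Finset.smul_sum]
    refine Finset.sum_bij' (fun x _ => h • x) (fun x _ => h⁻¹ • x) (fun x hx => hmove h x hx)
      (fun x hx => hmove h⁻¹ x hx) (fun x _ => inv_smul_smul h x) (fun x _ => smul_inv_smul h x)
      (fun x _ => rfl)
  have htor : ∀ (a : ℕ) (w : V), a • w = 0 → w = 0 ∨ q ∣ a := by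
    intro a w h
    by_contra hc
    push Not at hc
    have hcop : Nat.Coprime q a := C.qp.coprime_iff_not_dvd.2 hc.2
    have h1 : addOrderOf w ∣ Nat.gcd q a :=
      Nat.dvd_gcd (addOrderOf_dvd_of_nsmul_eq_zero (C.tors w)) (addOrderOf_dvd_of_nsmul_eq_zero h)
    rw [hcop.gcd_eq_one, Nat.dvd_one, AddMonoid.addOrderOf_eq_one_iff] at h1
    exact hc.1 h1
  have hne0 : ∀ x ∈ O, x ≠ 0 := by
    intro x hx h0
    have : ∀ y ∈ O, y = 0 := fun y hy => by
      obtain ⟨h, hh⟩ := MulAction.orbit_eq_iff.2 ((hO x).1 hx) ▸ (hO y).1 hy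
      rw [← hh, h0]; exact smul_zero h
    have : O.card ≤ 1 := Finset.card_le_one.2 fun a ha b hb => by rw [this a ha, this b hb]
    omega
  have key : ∀ x ∈ O, ∃ (k : ℕ) (m : V) (S : V →+ V), ¬ q ∣ k ∧ S x = k • x ∧
      (∀ y ∈ O, y ≠ x → S y = m) ∧ k • x + (O.card - 1) • m = 0 := by
    intro x hx
    let s : Finset H := Finset.univ.filter fun h => h • x = x
    let S : V →+ V := ∑ h ∈ s, DistribMulAction.toAddMonoidHom V h
    have hS : ∀ y, S y = ∑ h ∈ s, h • y := fun y => by
      simp [S, AddMonoidHom.finsetSum_apply]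
    have hk : ¬ q ∣ s.card := fun hd => C.cop (by
      refine hd.trans ?_
      have : s.card = Nat.card (MulAction.stabilizer H x) := by
        rw [Nat.card_eq_fintype_card, ← Fintype.card_coe]
        exact Fintype.card_congr (Equiv.subtypeEquivRight fun h => by simp [s])
      rw [this]
      exact (MulAction.stabilizer H x).card_subgroup_dvd_card)
    have hSx : S x = s.card • x := by
      rw [hS, Finset.sum_congr rfl (fun h hh => (Finset.mem_filter.1 hh).2), Finset.sum_const]
    obtain ⟨y₀, hy₀, hy₀x⟩ := Finset.exists_mem_ne (by omega : 1 < O.card) x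
    refine ⟨s.card, S y₀, S, hk, hSx, ?_, ?_⟩
    · intro y hy hyx
      obtain ⟨h₀, e1, e2⟩ := h2 x y₀ x y hx hy₀ hx hy hy₀x.symm hyx.symm
      rw [hS, hS, ← e2]
      refine Finset.sum_bij' (fun h _ => h * h₀) (fun h _ => h * h₀⁻¹) ?_ ?_ ?_ ?_ ?_
      · intro h hh
        exact Finset.mem_filter.2 ⟨Finset.mem_univ _, by rw [mul_smul, e1, (Finset.mem_filter.1 hh).2]⟩
      · intro h hh
        refine Finset.mem_filter.2 ⟨Finset.mem_univ _, ?_⟩
        rw [mul_smul, inv_smul_eq_iff.2 e1.symm, (Finset.mem_filter.1 hh).2]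
      · intro h _; group
      · intro h _; group
      · intro h _; rw [mul_smul]
    · have hall : ∀ y ∈ O.erase x, S y = S y₀ := by
        intro y hy
        obtain ⟨hyx, hyO⟩ := Finset.mem_erase.1 hy
        obtain ⟨h₀, e1, e2⟩ := h2 x y₀ x y hx hy₀ hx hyO hy₀x.symm hyx.symm
        rw [hS, hS, ← e2]
        refine Finset.sum_bij' (fun h _ => h * h₀) (fun h _ => h * h₀⁻¹) ?_ ?_ ?_ ?_ ?_
        · intro h hh
          exact Finset.mem_filter.2 ⟨Finset.mem_univ _, by rw [mul_smul, e1, (Finset.mem_filter.1 hh).2]⟩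
        · intro h hh
          refine Finset.mem_filter.2 ⟨Finset.mem_univ _, ?_⟩
          rw [mul_smul, inv_smul_eq_iff.2 e1.symm, (Finset.mem_filter.1 hh).2]
        · intro h _; group
        · intro h _; group
        · intro h _; rw [mul_smul]
      have := congrArg S hsum
      rw [map_zero, map_sum, ← Finset.add_sum_erase _ _ hx, Finset.sum_congr rfl hall, Finset.sum_const,
        Finset.card_erase_of_mem hx, hSx] at this
      exact this
  have hinj : ∀ x ∈ O, ∀ y ∈ O, ∀ x' ∈ O, ∀ y' ∈ O, x ≠ y → x' ≠ y' → x - y = x' - y' →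
      (x = x' ∧ y = y') ∨ (x' = y ∧ y' = x) := by
    intro x hx y hy x' hx' y' hy' hxy hxy' he
    by_cases hxx : x = x'
    · subst hxx
      exact Or.inl ⟨rfl, sub_right_injective he⟩
    right
    obtain ⟨k, m, S, hk, hSx, hSy, hrel⟩ := key x hx
    have h1 := congrArg S he
    rw [map_sub, map_sub, hSx, hSy y hy hxy.symm, hSy x' hx' (Ne.symm hxx)] at h1
    have hkm : k • x ≠ m := by
      intro e
      rw [← e, ← mul_nsmul, ← add_nsmul] at hrel
      rcases htor _ _ hrel with h | h
      · exact hne0 x hx h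
      · rw [show k + k * (O.card - 1) = k * O.card by
          rw [show k + k * (O.card - 1) = k * (1 + (O.card - 1)) by ring, show 1 + (O.card - 1) = O.card by omega]] at h
        exact (C.qp.dvd_mul.1 h).elim hk hq
    by_cases hy'x : y' = x
    swap
    · rw [hSy y' hy' hy'x, sub_self, sub_eq_zero] at h1
      exact absurd h1 hkm
    rw [hy'x, hSx] at h1
    have h3 : (2 : ℕ) • (k • x - m) = 0 := by
      rw [two_nsmul]
      nth_rw 2 [h1]
      abel
    rcases htor _ _ h3 with h | h
    · exact absurd (sub_eq_zero.1 h) hkm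
    have hq2 : q = 2 := (Nat.prime_dvd_prime_iff_eq C.qp Nat.prime_two).1 h
    have hneg : ∀ w : V, -w = w := fun w => by
      refine neg_eq_of_add_eq_zero_left ?_
      rw [← two_nsmul, ← hq2]
      exact C.tors w
    refine ⟨?_, hy'x⟩
    rw [hy'x, sub_eq_add_neg, sub_eq_add_neg, hneg y, hneg x, add_comm x' x] at he
    exact (add_left_cancel he).symm
  obtain ⟨a, ha, b, hb, hab⟩ := Finset.one_lt_card.1 (by omega : 1 < O.card)
  let pairs : Finset (V × V) := (O ×ˢ O).filter fun z => z.1 ≠ z.2
  have hpc : pairs.card = O.card * O.card - O.card := by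
    have : pairs = O.offDiag := by ext z; simp [pairs, Finset.mem_offDiag, and_assoc]
    rw [this, Finset.offDiag_card]
  have himg : pairs.image (fun z => z.1 - z.2) ⊆ (Set.finite_range fun h : H => h • (a - b)).toFinset := by
    intro w hw
    obtain ⟨z, hz, rfl⟩ := Finset.mem_image.1 hw
    obtain ⟨hzO, hzne⟩ := Finset.mem_filter.1 hz
    obtain ⟨h, e1, e2⟩ := h2 a b z.1 z.2 ha hb (Finset.mem_product.1 hzO).1 (Finset.mem_product.1 hzO).2
      hab hzne
    exact (Set.Finite.mem_toFinset _).2 ⟨h, by change h • (a - b) = z.1 - z.2; rw [smul_sub, e1, e2]⟩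
  have hle : (pairs.image fun z => z.1 - z.2).card ≤ O.card := by
    refine (Finset.card_le_card himg).trans ?_
    rw [← Set.ncard_eq_toFinset_card _ (Set.finite_range fun h : H => h • (a - b))]
    exact hbound _
  have hfib : pairs.card ≤ 2 * (pairs.image fun z => z.1 - z.2).card := by
    refine Finset.card_le_mul_card_image _ 2 fun w hw => ?_
    obtain ⟨z, hz, rfl⟩ := Finset.mem_image.1 hw
    refine (Finset.card_le_card (t := ({z, (z.2, z.1)} : Finset (V × V))) fun z' hz' => ?_).trans
      Finset.card_le_two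
    obtain ⟨hz'p, hz'e⟩ := Finset.mem_filter.1 hz'
    obtain ⟨hzO, hzne⟩ := Finset.mem_filter.1 hz
    obtain ⟨hzO', hzne'⟩ := Finset.mem_filter.1 hz'p
    rcases hinj _ (Finset.mem_product.1 hzO).1 _ (Finset.mem_product.1 hzO).2 _
      (Finset.mem_product.1 hzO').1 _ (Finset.mem_product.1 hzO').2 hzne hzne' hz'e.symm with
      ⟨e1, e2⟩ | ⟨e1, e2⟩
    · exact Finset.mem_insert.2 (Or.inl (Prod.ext e1.symm e2.symm))
    · exact Finset.mem_insert.2 (Or.inr (Finset.mem_singleton.2 (Prod.ext e1 e2)))
  have : O.card * O.card ≤ 3 * O.card := by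
    have := Nat.le_mul_self O.card
    omega
  have := Nat.le_of_mul_le_mul_right this (by omega)
  omega

theorem small_false_aux [Finite H] [Finite V] [Fact q.Prime] [Module (ZMod q) V] (hV : Nat.card V ≤ q ^ 2) :
    False := by
  classical
  have := Fact.mk C.pp
  have := C.nontrivial_V
  let lin : H →* (V →ₗ[ZMod q] V) :=
    { toFun := fun h => (DistribMulAction.toAddMonoidHom V h).toZModLinearMap q
      map_one' := LinearMap.ext fun v => by simp
      map_mul' := fun a b => LinearMap.ext fun v => by simp [mul_smul] }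
  let d : H →* (ZMod q)ˣ := ((LinearMap.det (M := V) (A := ZMod q)).comp lin).toHomUnits
  have hd : ∀ h, LinearMap.det (lin h) = 1 := fun h => by
    have hle := Abelianization.commutator_subset_ker d
    rw [C.perfect] at hle
    have := MonoidHom.mem_ker.1 (hle (Subgroup.mem_top h))
    exact congrArg Units.val this
  have : Module.Finite (ZMod q) V := Module.Finite.of_finite
  have hfin : Module.finrank (ZMod q) V ≤ 2 := by
    rw [Module.natCard_eq_pow_finrank (K := ZMod q), Nat.card_zmod] at hV
    exact (Nat.pow_le_pow_iff_right C.qp.one_lt).1 hV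
  obtain ⟨v, hv⟩ := exists_ne (0 : V)
  have hfree : ∀ h : H, h • v = v → h = 1 := by
    intro h hh
    refine C.faith h fun w => ?_
    by_cases hw : w ∈ Submodule.span (ZMod q) ({v} : Set V)
    · obtain ⟨c, rfl⟩ := Submodule.mem_span_singleton.1 hw
      exact ((lin h).map_smul c v).trans (congrArg (c • ·) hh)
    have hli : LinearIndependent (ZMod q) ![v, w] := by
      refine (LinearIndependent.pair_iff' hv).2 fun c e => hw ?_
      exact Submodule.mem_span_singleton.2 ⟨c, e⟩
    have h2 : Module.finrank (ZMod q) V = 2 := by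
      refine le_antisymm hfin ?_
      simpa using hli.fintype_card_le_finrank
    let bs := basisOfLinearIndependentOfCardEqFinrank hli (by rw [Fintype.card_fin, h2])
    have hb : ∀ i, bs i = ![v, w] i := fun i => by simp [bs]
    have hdet := hd h
    rw [← LinearMap.det_toMatrix bs, Matrix.det_fin_two] at hdet
    simp only [LinearMap.toMatrix_apply] at hdet
    have h0 : lin h (bs 0) = bs 0 := by rw [hb]; simpa [lin] using hh
    rw [h0, bs.repr_self, Finsupp.single_eq_same, Finsupp.single_eq_of_ne (by decide), mul_zero,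
      sub_zero, one_mul] at hdet
    have hhw : h • w = bs.repr (h • w) 0 • v + w := by
      conv_lhs => rw [← bs.sum_repr (h • w)]
      have h1 : lin h (bs 1) = h • w := by rw [hb]; rfl
      rw [h1] at hdet
      rw [Fin.sum_univ_two, hb, hb, hdet]
      simp
    set a := bs.repr (h • w) 0
    have hiter : ∀ m : ℕ, (h ^ m) • w = m • (a • v) + w := by
      intro m
      induction m with
      | zero => simp
      | succ m ih =>
        have hav : h • (a • v) = a • v := ((lin h).map_smul a v).trans (congrArg (a • ·) hh)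
        rw [pow_succ', mul_smul, ih, smul_add, ← smul_comm m h (a • v), hav, hhw, succ_nsmul, add_assoc]
    have h1 := hiter (orderOf h)
    rw [pow_orderOf_eq_one, one_smul, right_eq_add] at h1
    have hcop : Nat.Coprime q (orderOf h) :=
      C.qp.coprime_iff_not_dvd.2 fun hd => C.cop (hd.trans (orderOf_dvd_natCard h))
    have h3 : addOrderOf (a • v) ∣ Nat.gcd q (orderOf h) :=
      Nat.dvd_gcd (addOrderOf_dvd_of_nsmul_eq_zero (C.tors _)) (addOrderOf_dvd_of_nsmul_eq_zero h1)
    rw [hcop.gcd_eq_one, Nat.dvd_one, AddMonoid.addOrderOf_eq_one_iff] at h3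
    rw [hhw, h3, zero_add]
  obtain ⟨a, ha⟩ := C.orb v
  have hbot : MulAction.stabilizer H v = ⊥ := (Subgroup.eq_bot_iff_forall _).2 fun h hh => hfree h hh
  rw [hbot, Subgroup.index_bot] at ha
  have hP : IsPGroup p H := IsPGroup.of_card ha
  have : Group.IsNilpotent H := hP.isNilpotent
  exact C.not_solvable inferInstance

/-- `V` has more than `q ^ 2` elements. -/
theorem small_false [Finite H] [Finite V] (hV : Nat.card V ≤ q ^ 2) : False :=
  @Crit.small_false_aux H V _ _ _ q p C _ _ (Fact.mk C.qp) (AddCommGroup.zmodModule C.tors) hV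

end Crit

end Cfsg.Agent.Lib.QBaer
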